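import Mathlib
import Cfsg.Agent.H943.SL2Fun

/-!
# The functionals on the weights modulo 91 and modulo 4 (helper943)

`fc c` (`c < 4`) : four functions on the weights of the torus of order 728; the sum of the values on the weights of an
irreducible module of dimension at most 248 of `PSL(2, 729)` is nonnegative (`fc_nonneg`).
-/

set_option autoImplicit false
set_option maxRecDepth 100000

namespace Cfsg.Agent.H943.Cert

/-- numbers with digits below the digits of `b` in base 3 -/
def digs : ℕ → ℕ → List ℕ
  | 0, _ => [0]
  | n + 1, b => (digs n (b / 3)).flatMap fun m => (List.range (b % 3 + 1)).map fun r => 3 * m + r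

theorem mem_digs : ∀ (n b : ℕ), b < 3 ^ n → ∀ m, m ∈ digs n b ↔ m ≤ b ∧ ¬ 3 ∣ b.choose m := by
  intro n
  induction n with
  | zero =>
    intro b hb m
    have hb0 : b = 0 := by simpa using hb
    subst hb0
    simp only [digs, List.mem_singleton]
    constructor
    · rintro rfl
      simp
    · rintro ⟨h, -⟩
      omega
  | succ n ih =>
    intro b hb m
    have hb' : b / 3 < 3 ^ n := by
      rw [Nat.div_lt_iff_lt_mul (by norm_num)]
      rwa [pow_succ] at hb
    simp only [digs, List.mem_flatMap, List.mem_map, List.mem_range]
    have hL := Choose.choose_modEq_choose_mod_mul_choose_div_nat (n := b) (k := m) (p := 3)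
    have hd : 3 ∣ b.choose m ↔ 3 ∣ (b % 3).choose (m % 3) ∨ 3 ∣ (b / 3).choose (m / 3) := by
      rw [hL.dvd_iff dvd_rfl, Nat.prime_three.dvd_mul]
    have hs : ∀ a < 3, ∀ r < 3, ¬ 3 ∣ a.choose r ↔ r ≤ a := by decide
    have hsm := hs (b % 3) (Nat.mod_lt _ (by norm_num)) (m % 3) (Nat.mod_lt _ (by norm_num))
    constructor
    · rintro ⟨m', hm', r, hr, rfl⟩
      have h1 := (ih _ hb' m').1 hm'
      have hr3 : r < 3 := by omega
      have e1 : (3 * m' + r) / 3 = m' := by omega
      have e2 : (3 * m' + r) % 3 = r := by omega
      rw [e2] at hsm
      refine ⟨by omega, ?_⟩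
      rw [hd, e1, e2]
      rintro (h | h)
      · exact hsm.2 (by omega) h
      · exact h1.2 h
    · rintro ⟨hmb, h3⟩
      rw [hd, not_or] at h3
      refine ⟨m / 3, (ih _ hb' _).2 ⟨by omega, h3.2⟩, m % 3, ?_, by omega⟩
      have := hsm.1 h3.1
      omega

theorem nodup_digs : ∀ (n b : ℕ), (digs n b).Nodup := by
  intro n
  induction n with
  | zero => intro b; simp [digs]
  | succ n ih =>
    intro b
    rw [digs, List.nodup_flatMap]
    refine ⟨fun m _ => ?_, ?_⟩
    · refine List.Nodup.map (fun a c h => ?_) List.nodup_range
      simpa using h
    · refine (ih (b / 3)).imp ?_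
      intro m m' hm x hx hx'
      rw [List.mem_map] at hx hx'
      obtain ⟨r, hr, rfl⟩ := hx
      obtain ⟨r', hr', h⟩ := hx'
      rw [List.mem_range] at hr hr'
      omega

theorem Bf_eq {k : Type*} [Field k] [DecidableEq k] [CharP k 3] {n b : ℕ} (hb : b < 3 ^ n) :
    SL2Mod.Bf k b = (digs n b).toFinset := by
  ext m
  rw [List.mem_toFinset, mem_digs n b hb]
  unfold SL2Mod.Bf
  rw [Finset.mem_filter, Finset.mem_range, Nat.lt_succ_iff, Ne, CharP.cast_eq_zero_iff k 3]

/-- the fields of a number -/
def tb (B j : ℕ) : ℕ := (B >>> (16 * j)) % 65536

/-- the tables modulo 91 -/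
def BY : ℕ → ℕ
  | 0 => 2709278338397437503301684728973895123558716232301511568479981323230704150460508091968232854156085928153460901850850996783069678463620650732309256683794178576753357822325060911904763643366749703176216301049386000346521647887062771136821647698562580221630648178539033470617056294873868479194648192758869959171719192168188347345576677189716053364453239539858595995916482118227501916860820647707793
  | 1 => 594786181037908273681975096990224049323911822979866068649526076790719116098955883672388371360047902848513840962242175194868494937924074245618992750147229715939972651981413612113851012501142628014900865131333438421297394893928721178838418340203431150122038208934117871630408193959054051353150187697493987996849156264808514569028461766415288403398560519314340629007110103812116116727757041566062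
  | 2 => 5789615945699257182282150045198998441280559587883925330462785982503291629703673408917498567140700137007240968104310958053196632727980939083777598856547556341651342275091910802923184404920522141529347243076900830621337589582706600619787660144818863080761113177830959139203388994044829753640471738582072203405898180492062288674723954900831995627279871548626393768505781117428151907007643847493876
  | _ => 83215497805762411739845402107705239551830302397531206974550465928717813967812975508634670372917848303679608506760084712798941235251254660253179661219120969443306270649864724514122825900512382675577625984205758216195332119060039630174406265774091088559823674146387900704404497725928582143076081044909608438682334071065255568969446285397870544299295328475384413002265736237834307561921045135414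

/-- the tables modulo 4 -/
def BG : ℕ → ℕ
  | 0 => 0
  | 1 => 51511492708073472
  | 2 => 43910096377086264
  | _ => 1688849860657164

/-- the constants -/
def CC : ℕ → ℕ
  | 0 => 1169
  | 1 => 366
  | 2 => 2604
  | _ => 30

/-- the positive functionals -/
def fp (c κ : ℕ) : ℕ := tb (BY c) (κ % 91) + tb (BG c) (κ % 4)

/-- the functionals -/
def fc (c κ : ℕ) : ℤ := (fp c κ : ℤ) - CC c

/-- the sum over a list -/
def lsum (g : ℕ → ℕ) : List ℕ → ℕ
  | [] => 0
  | a :: as => g a + lsum g as

theorem lsum_eq (g : ℕ → ℕ) (L : List ℕ) : lsum g L = (L.map g).sum := by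
  induction L with
  | nil => rfl
  | cons a L ih => rw [lsum, ih, List.map_cons, List.sum_cons]

/-- the check for one module -/
def chk1 (c b : ℕ) : Bool :=
  Nat.blt 248 (digs 6 b).length || Nat.ble (CC c * (digs 6 b).length) (lsum (fun m => fp c (SL2Mod.wtOf 728 b m)) (digs 6 b))

theorem chk_all0 : ((List.range 365).all fun i => chk1 0 (2 * i)) = true := by decide +kernel

theorem chk_all1 : ((List.range 365).all fun i => chk1 1 (2 * i)) = true := by decide +kernel

theorem chk_all2 : ((List.range 365).all fun i => chk1 2 (2 * i)) = true := by decide +kernel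

theorem chk_all3 : ((List.range 365).all fun i => chk1 3 (2 * i)) = true := by decide +kernel

theorem fc_nonneg {k : Type*} [Field k] [DecidableEq k] [CharP k 3] {c : ℕ} (hc : c < 4) {b : ℕ} (hb : b ≤ 728)
    (he : Even b) (hd : (SL2Mod.Bf k b).card ≤ 248) : 0 ≤ ∑ m ∈ SL2Mod.Bf k b, fc c (SL2Mod.wtOf 728 b m) := by
  have hb3 : b < 3 ^ 6 := by norm_num; omega
  have hnd := nodup_digs 6 b
  rw [Bf_eq hb3] at hd ⊢
  rw [List.toFinset_card_of_nodup hnd] at hd
  rw [List.sum_toFinset _ hnd]
  have h1 : chk1 c b = true := by
    obtain ⟨i, rfl⟩ := he
    have hi : i ∈ List.range 365 := by rw [List.mem_range]; omega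
    have e : i + i = 2 * i := by ring
    rw [e]
    interval_cases c
    · exact List.all_eq_true.1 chk_all0 i hi
    · exact List.all_eq_true.1 chk_all1 i hi
    · exact List.all_eq_true.1 chk_all2 i hi
    · exact List.all_eq_true.1 chk_all3 i hi
  rw [chk1, Bool.or_eq_true] at h1
  rcases h1 with h1 | h1
  · have h2 : 248 < (digs 6 b).length := by simpa [Nat.blt_eq] using h1
    omega
  · rw [Nat.ble_eq, lsum_eq] at h1
    have h2 : ∀ L : List ℕ, ((L.map fun m => fc c (SL2Mod.wtOf 728 b m)).sum : ℤ) =
        (((L.map fun m => fp c (SL2Mod.wtOf 728 b m)).sum : ℕ) : ℤ) - CC c * L.length := by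
      intro L
      induction L with
      | nil => simp
      | cons a L ih =>
        rw [List.map_cons, List.sum_cons, ih, List.map_cons, List.sum_cons, List.length_cons]
        unfold fc
        push_cast
        ring
    rw [h2]
    have h3 : ((CC c * (digs 6 b).length : ℕ) : ℤ) ≤ (((digs 6 b).map fun m => fp c (SL2Mod.wtOf 728 b m)).sum : ℕ) := by
      exact_mod_cast h1
    push_cast at h3
    push_cast
    linarith

end Cfsg.Agent.H943.Cert
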