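import Cfsg.Agent.H943.SL2St

/-!
# Representations of `PSL(2, 243)` over the field with three elements (helper943)

`five` : `dim V = a + 243 s + 5 m`, `dim C_V(w) = a + 121 s + 5 m'` with `m' ≤ m`.
-/

set_option autoImplicit false
set_option linter.unusedSectionVars false

namespace Cfsg.Agent.H943.SL2Mod

open Matrix Cfsg.Agent.H943.SL2Rel Cfsg.Agent.H943.RepAdd

theorem five_dvd_of_pow {n : ℕ} (h : 3 ^ n ≡ 1 [MOD 11]) : 5 ∣ n := by
  have h1 : (3 ^ 5) ^ (n / 5) * 3 ^ (n % 5) = 3 ^ n := by rw [← pow_mul, ← pow_add, Nat.div_add_mod]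
  have h2 : (3 ^ 5) ^ (n / 5) * 3 ^ (n % 5) ≡ 3 ^ (n % 5) [MOD 11] := by
    have h3 : 3 ^ 5 ≡ 1 [MOD 11] := by decide
    have h4 := (h3.pow (n / 5)).mul_right (3 ^ (n % 5))
    rwa [one_pow, one_mul] at h4
  rw [h1] at h2
  have h5 : 3 ^ (n % 5) ≡ 1 [MOD 11] := h2.symm.trans h
  have h6 : n % 5 < 5 := Nat.mod_lt _ (by norm_num)
  have h7 : n % 5 = 0 := by
    generalize n % 5 = r at h5 h6
    interval_cases r
    · rfl
    · exact absurd h5 (by decide)
    · exact absurd h5 (by decide)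
    · exact absurd h5 (by decide)
    · exact absurd h5 (by decide)
  exact Nat.dvd_of_mod_eq_zero h7

section

variable {k : Type*} [Field k] [Fintype k] [CharP k 3] {F : Type*} [Field F] [Fintype F] [DecidableEq F] [CharP F 3]

theorem finrank_five {V : Type*} [AddCommGroup V] [Module k V] [FiniteDimensional k V] (hk : Fintype.card k = 3)
    {ρ : Representation k (SpecialLinearGroup (Fin 2) F) V} (hI : Irr ρ) {D : Submodule k V} {c : k}
    (G : Good ρ D c) (hD : TSimple ρ D) (h1 : ρ (h (-1)) = 1) (hF : Fintype.card F = 243) {b : Fˣ}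
    (hb : ∃ d ∈ D, ρ (h b) d ≠ d) (g : SpecialLinearGroup (Fin 2) F) (μ : k) :
    5 ∣ Module.finrank k (eig ρ g μ) := by
  have : Fact (Nat.Prime 3) := ⟨by norm_num⟩
  have : Fact (Nat.Prime 11) := ⟨by norm_num⟩
  obtain ⟨α, hα, hαD⟩ := exists_end ρ 3 hI G hD b
  have hpow : ∀ n : ℕ, (∀ g x, (α ^ n) (ρ g x) = ρ g ((α ^ n) x)) ∧ ∀ x ∈ D, (α ^ n) x = ρ (h (b ^ n)) x := by
    intro n
    induction n with
    | zero =>
      refine ⟨fun g x => rfl, fun x _ => ?_⟩
      rw [pow_zero, pow_zero, h_one, map_one]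
      rfl
    | succ n ih =>
      constructor
      · intro g x
        rw [pow_succ']
        show α ((α ^ n) (ρ g x)) = ρ g (α ((α ^ n) x))
        rw [ih.1, hα]
      · intro x hx
        rw [pow_succ', pow_succ']
        show α ((α ^ n) x) = _
        rw [ih.2 x hx, hαD _ (G.tinv _ _ hx), apply_mul, ← h_mul]
  have hcard : Fintype.card Fˣ = 242 := by rw [Fintype.card_units, hF]
  have hb1 : ρ (h (b ^ 121)) = 1 := by
    have h2 : (b ^ 121) ^ 2 = 1 := by
      rw [← pow_mul]
      have := pow_card_eq_one (x := b)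
      rwa [hcard] at this
    have h3 : ((b ^ 121 : Fˣ) : F) ^ 2 = 1 := by
      rw [← Units.val_pow_eq_pow_val, h2, Units.val_one]
    rcases mul_self_eq_one_iff.1 ((sq _).symm.trans h3) with h4 | h4
    · rw [show b ^ 121 = 1 from Units.ext h4, h_one, map_one]
    · rw [show b ^ 121 = -1 from Units.ext h4, h1]
  obtain ⟨d0, hd0, hd0'⟩ := Submodule.exists_mem_ne_zero_of_ne_bot hD.1
  -- `α ^ 121 = 1`
  have h121 : ∀ x, (α ^ 121) x = x := by
    rcases ker_eq ρ hI (((α ^ 121 : V ≃ₗ[k] V) : Module.End k V) - 1) (by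
      intro g x
      show (α ^ 121) (ρ g x) - ρ g x = ρ g ((α ^ 121) x - x)
      rw [(hpow 121).1, map_sub]) with h2 | h2
    · exfalso
      have h3 : d0 ∈ LinearMap.ker (((α ^ 121 : V ≃ₗ[k] V) : Module.End k V) - 1) := by
        rw [LinearMap.mem_ker]
        show (α ^ 121) d0 - d0 = 0
        rw [(hpow 121).2 d0 hd0, hb1]
        exact sub_self _
      rw [h2] at h3
      exact hd0' ((Submodule.mem_bot k).1 h3)
    · intro x
      have h3 := LinearMap.congr_fun h2 x
      have h4 : (α ^ 121) x - x = 0 := h3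
      exact sub_eq_zero.1 h4
  have hα1 : ¬ ∀ x, α x = x := by
    intro h2
    obtain ⟨d, hd, hd'⟩ := hb
    exact hd' (by rw [← hαD d hd, h2])
  -- an automorphism of order `11`
  obtain ⟨β, hβ, hβ11, hβ1⟩ : ∃ β : V ≃ₗ[k] V, (∀ g x, β (ρ g x) = ρ g (β x)) ∧ (∀ x, (β ^ 11) x = x) ∧
      ¬ ∀ x, β x = x := by
    by_cases h11 : ∀ x, (α ^ 11) x = x
    · exact ⟨α, hα, h11, hα1⟩
    · refine ⟨α ^ 11, (hpow 11).1, fun x => ?_, h11⟩
      rw [← pow_mul]
      exact h121 x
  have hβf : ∀ x, β x = x → x = 0 := by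
    rcases ker_eq ρ hI ((β : Module.End k V) - 1) (by
      intro g x
      show β (ρ g x) - ρ g x = ρ g (β x - x)
      rw [hβ, map_sub]) with h2 | h2
    · intro x hx
      have h3 : x ∈ LinearMap.ker ((β : Module.End k V) - 1) := by
        rw [LinearMap.mem_ker]
        show β x - x = 0
        rw [hx, sub_self]
      rw [h2] at h3
      exact (Submodule.mem_bot k).1 h3
    · exfalso
      apply hβ1
      intro x
      have h3 : β x - x = 0 := LinearMap.congr_fun h2 x
      exact sub_eq_zero.1 h3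
  have : Finite (eig ρ g μ) := Module.finite_of_finite k
  have hmod := card_modEq_one (k := k) (l := 11) β hβ11 hβf (eig ρ g μ) (fun x hx => by
    rw [mem_eig] at hx ⊢
    rw [← hβ, hx, map_smul])
  apply five_dvd_of_pow
  rw [Module.natCard_eq_pow_finrank (K := k), Nat.card_eq_fintype_card, hk] at hmod
  exact hmod

theorem not_sq (hF : Fintype.card F = 243) (x : F) : x ^ 2 ≠ -1 := by
  intro hx
  have hx0 : x ≠ 0 := by
    rintro rfl
    rw [zero_pow two_ne_zero] at hx
    exact one_ne_zero (neg_eq_zero.1 hx.symm)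
  have h1 := FiniteField.pow_card_sub_one_eq_one x hx0
  rw [hF] at h1
  have h2 : x ^ 242 = (x ^ 2) ^ 121 := by rw [← pow_mul]
  rw [h2, hx] at h1
  have h3 : (-1 : F) ^ 121 = -1 := Odd.neg_one_pow (by decide)
  rw [h3] at h1
  have h4 : (2 : F) = 0 := by linear_combination -h1
  have h5 : ((2 : ℕ) : F) = 0 := by exact_mod_cast h4
  rw [CharP.cast_eq_zero_iff F 3] at h5
  omega

theorem two_ne (k : Type*) [Field k] [CharP k 3] : (2 : k) ≠ 0 := by
  intro h4
  have h5 : ((2 : ℕ) : k) = 0 := by exact_mod_cast h4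
  rw [CharP.cast_eq_zero_iff k 3] at h5
  omega

theorem irr_five {V : Type*} [AddCommGroup V] [Module k V] [FiniteDimensional k V] (hk : Fintype.card k = 3)
    {ρ : Representation k (SpecialLinearGroup (Fin 2) F) V} (hI : Irr ρ) (h1 : ρ (h (-1)) = 1)
    (hF : Fintype.card F = 243) : ∃ a s m m' : ℕ, Module.finrank k V = a + 243 * s + 5 * m ∧
      Module.finrank k (eig ρ w 1) = a + 121 * s + 5 * m' ∧ m' ≤ m := by
  have : Fact (Nat.Prime 3) := ⟨by norm_num⟩
  obtain ⟨D, c, G, hD, hc⟩ := exists_type ρ 3 hI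
  rcases hc with rfl | ⟨rfl, hT⟩
  · by_cases hT : ∀ a, ∀ d ∈ D, ρ (h a) d = d
    · obtain ⟨h2, h3⟩ := triv_of_type ρ hI G hD hT 3
      refine ⟨1, 0, 0, 0, by rw [h3], ?_, le_rfl⟩
      have h4 : eig ρ w 1 = ⊤ := by
        rw [eq_top_iff]
        intro x _
        rw [mem_eig, h2, one_smul]
      rw [h4, finrank_top, h3]
    · push Not at hT
      obtain ⟨b, d, hd, hd'⟩ := hT
      have h2 := finrank_five hk hI G hD h1 hF ⟨d, hd, hd'⟩
      have h3 : eig ρ 1 1 = ⊤ := by
        rw [eq_top_iff]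
        intro x _
        rw [mem_eig, map_one, one_smul]
        rfl
      obtain ⟨m, hm⟩ := h2 1 1
      rw [h3, finrank_top] at hm
      obtain ⟨m', hm'⟩ := h2 w 1
      refine ⟨0, 0, m, m', by omega, by omega, ?_⟩
      have h4 := Submodule.finrank_le (eig ρ w 1)
      omega
  · obtain ⟨h2, h3⟩ := st_of_type ρ 3 hI G hD hT (not_sq hF) (two_ne k)
    rw [hF] at h2 h3
    exact ⟨0, 1, 0, 0, by omega, by omega, le_rfl⟩

end

section

universe v

variable {k : Type*} [Field k] [Fintype k] [CharP k 3] {F : Type*} [Field F] [Fintype F] [DecidableEq F] [CharP F 3]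

/-- subrepresentations of minimal dimension are irreducible -/
theorem irr_subRep {k : Type*} [Field k] {F : Type*} [Field F] {V : Type*} [AddCommGroup V] [Module k V]
    (ρ : Representation k (SpecialLinearGroup (Fin 2) F) V) {W : Submodule k V} (hW : ∀ g, ∀ x ∈ W, ρ g x ∈ W)
    (h0 : W ≠ ⊥) (hmin : ∀ W' ≤ W, (∀ g, ∀ x ∈ W', ρ g x ∈ W') → W' = ⊥ ∨ W' = W) : Irr (subRep ρ W hW) := by
  refine ⟨Submodule.nontrivial_iff_ne_bot.2 h0, fun W' hW' => ?_⟩
  rcases hmin (W'.map W.subtype) (Submodule.map_subtype_le _ _) (by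
    rintro g _ ⟨x, hx, rfl⟩
    exact ⟨_, hW' g x hx, rfl⟩) with h1 | h1
  · left
    rw [eq_bot_iff]
    intro x hx
    have h2 : (x : V) ∈ W'.map W.subtype := ⟨x, hx, rfl⟩
    rw [h1] at h2
    exact (Submodule.mem_bot k).2 (Subtype.ext ((Submodule.mem_bot k).1 h2))
  · right
    rw [eq_top_iff]
    intro x _
    have h2 : (x : V) ∈ W'.map W.subtype := by rw [h1]; exact x.2
    obtain ⟨y, hy, e⟩ := h2
    rwa [← Subtype.ext (p := fun z => z ∈ W) e]

/-- **representations of `PSL(2, 243)` in characteristic three** -/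
theorem five (hk : Fintype.card k = 3) (hF : Fintype.card F = 243) (n : ℕ) :
    ∀ (V : Type v) [AddCommGroup V] [Module k V] [FiniteDimensional k V]
      (ρ : Representation k (SpecialLinearGroup (Fin 2) F) V) (_ : ρ (h (-1)) = 1) (_ : Module.finrank k V = n),
      ∃ a s m m' : ℕ, Module.finrank k V = a + 243 * s + 5 * m ∧
        Module.finrank k (eig ρ w 1) = a + 121 * s + 5 * m' ∧ m' ≤ m := by
  induction n using Nat.strong_induction_on with
  | _ n ih =>
    intro V _ _ _ ρ h1 hn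
    rcases subsingleton_or_nontrivial V with hV | hV
    · refine ⟨0, 0, 0, 0, ?_, ?_, le_rfl⟩
      · exact Module.finrank_zero_of_subsingleton
      · exact Module.finrank_zero_of_subsingleton
    · obtain ⟨W, hW, hW0, hmin⟩ := exists_irr_sub ρ
      have hIW := irr_subRep ρ hW hW0 hmin
      have e1 : subRep ρ W hW (h (-1)) = 1 := by
        refine LinearMap.ext fun x => Subtype.ext ?_
        rw [coe_subRep, h1]
        rfl
      have e2 : quotRep ρ W hW (h (-1)) = 1 := by
        refine LinearMap.ext fun x => ?_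
        obtain ⟨y, rfl⟩ := W.mkQ_surjective x
        rw [quotRep_mk, h1]
        rfl
      have hpos : 0 < Module.finrank k W := by
        have := hIW.1
        exact Module.finrank_pos
      have hadd := Submodule.finrank_quotient_add_finrank W
      obtain ⟨a, s, m, m', i1, i2, i3⟩ := irr_five hk hIW e1 hF
      obtain ⟨a', s', l, l', j1, j2, j3⟩ := ih (Module.finrank k (V ⧸ W)) (by omega) (V ⧸ W) (quotRep ρ W hW) e2 rfl
      have hww : ρ w ^ 2 = 1 := by
        rw [sq, ← map_mul, w_w, h1]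
      have h2 : ((2 : ℕ) : k) ≠ 0 := by
        have := two_ne k
        exact_mod_cast this
      have hE := finrank_eig ρ W hW hww h2 (one_pow 2) one_ne_zero
      exact ⟨a + a', s + s', m + l, m' + l', by omega, by omega, by omega⟩

end

end Cfsg.Agent.H943.SL2Mod
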