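import Mathlib
import Cfsg.Agent.H593.RobinsonRank
import Cfsg.Agent.H943.E8Alc
import Cfsg.Agent.H943.SL2Five
import Cfsg.Agent.H943.PSLHom

/-!
# No subgroup `L2(243)` in `E8(3)` (helper943)
-/

set_option autoImplicit false

namespace Cfsg.Agent.H943.L243

open Matrix Cfsg.Agent.H943.SL2Rel Cfsg.Agent.H943.PSLHom Cfsg.Agent.H943.RepAdd
open Cfsg.Lie
open Cfsg.Agent.H943.TorDim Cfsg.Agent.H943.E8Tab
open Cfsg.Agent.H944.RootVals

/-- **the dimension of the fixed space of an involution of `E8(3)`** -/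
theorem finrank_invol {x : ↥(chevE8.group (ZMod 3))} (hx : x ^ 2 = 1) (hx1 : x ≠ 1) :
    Module.finrank (ZMod 3) (LinearMap.ker (Matrix.toLin' (((x : ↥(chevE8.group (ZMod 3))) : GL chevE8.Idx (ZMod 3)) :
        Matrix chevE8.Idx chevE8.Idx (ZMod 3)) - (1 : ZMod 3) • (1 : Module.End (ZMod 3) (chevE8.Idx → ZMod 3)))) = 136 ∨
    Module.finrank (ZMod 3) (LinearMap.ker (Matrix.toLin' (((x : ↥(chevE8.group (ZMod 3))) : GL chevE8.Idx (ZMod 3)) :
        Matrix chevE8.Idx chevE8.Idx (ZMod 3)) - (1 : ZMod 3) • (1 : Module.End (ZMod 3) (chevE8.Idx → ZMod 3)))) = 120 := by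
  classical
  have : Fact (Nat.Prime 3) := ⟨Nat.prime_three⟩
  have hch : CharP (AlgebraicClosure (ZMod 3)) 3 :=
    charP_of_injective_algebraMap (algebraMap (ZMod 3) (AlgebraicClosure (ZMod 3))).injective 3
  have h2 : (2 : AlgebraicClosure (ZMod 3)) ≠ 0 := by
    intro h0
    have h1 : ((2 : ℕ) : AlgebraicClosure (ZMod 3)) = 0 := by exact_mod_cast h0
    rw [CharP.cast_eq_zero_iff _ 3] at h1
    omega
  have hζ : IsPrimitiveRoot (-1 : AlgebraicClosure (ZMod 3)) 2 := by
    refine IsPrimitiveRoot.neg_one 3 ?_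
    norm_num
  obtain ⟨v, hv, hdim⟩ := exists_vals_dim e8T 3 (F := ZMod 3) (x := x) (N := 2) (by norm_num) (by norm_num) hx hζ
  have hv0 : v ≠ 0 := by
    intro h0
    refine hx1 ?_
    have h1 := (hv.ord 1).1 (fun i => by rw [h0, Pi.zero_apply, mul_zero])
    rwa [pow_one] at h1
  have hc := count_two hv0
  have hd := hdim 1
  have e1 : (Multiset.replicate chevE8.rank (1 : AlgebraicClosure (ZMod 3)) +
      (ms chevE8 8 v).map (fun b => (-1 : AlgebraicClosure (ZMod 3)) ^ b.val)).count 1 = 8 + (ms chevE8 8 v).count 0 := by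
    rw [Multiset.count_add, Multiset.count_replicate_self]
    congr 1
    rw [Multiset.count_map, Multiset.count_eq_card_filter_eq]
    congr 1
    refine Multiset.filter_congr fun b _ => ?_
    have hb : ∀ b : ZMod 2, b = 0 ∨ b = 1 := by decide
    rcases hb b with rfl | rfl
    · simp
    · rw [show (1 : ZMod 2).val = 1 from rfl, pow_one]
      constructor
      · intro h
        exfalso
        refine h2 ?_
        linear_combination h
      · intro h
        exact absurd h (by decide)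
  rw [e1] at hd
  -- base change
  set A : Matrix chevE8.Idx chevE8.Idx (ZMod 3) := (((x : ↥(chevE8.group (ZMod 3))) : GL chevE8.Idx (ZMod 3)) :
        Matrix chevE8.Idx chevE8.Idx (ZMod 3)) with hA
  have key : ∀ {K : Type} [Field K] (B : Matrix chevE8.Idx chevE8.Idx K),
      (B - 1).rank + Module.finrank K (LinearMap.ker (Matrix.toLin' B - (1 : K) • (1 : Module.End K (chevE8.Idx → K)))) =
        Fintype.card chevE8.Idx := by
    intro K _ B
    have e2 : Matrix.toLin' B - (1 : K) • (1 : Module.End K (chevE8.Idx → K)) = Matrix.toLin' (B - 1) := by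
      rw [map_sub, Matrix.toLin'_one, one_smul]
      rfl
    rw [e2]
    have := LinearMap.finrank_range_add_finrank_ker (Matrix.toLin' (B - 1))
    rw [Module.finrank_fintype_fun_eq_card] at this
    rw [← this]
    rfl
  have k1 := key A
  have k2 := key (A.map (algebraMap (ZMod 3) (AlgebraicClosure (ZMod 3))))
  have k3 : (A.map (algebraMap (ZMod 3) (AlgebraicClosure (ZMod 3))) - 1).rank = (A - 1).rank := by
    rw [← Cfsg.Agent.H593.RobinsonRank.rank_map (algebraMap (ZMod 3) (AlgebraicClosure (ZMod 3))) (A - 1)]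
    congr 1
    rw [Matrix.map_sub _ (map_sub _), Matrix.map_one _ (map_zero _) (map_one _)]
  rw [k3, hd] at k2
  omega

theorem card_idx : Fintype.card chevE8.Idx = 248 := by
  show Fintype.card (Fin chevE8.rank ⊕ Fin chevE8.nroots) = 248
  rw [Fintype.card_sum, Fintype.card_fin, Fintype.card_fin]
  rfl

/-- **no `L2(243)` in `E8(3)`** -/
theorem no_L243 {F : Type*} [Field F] [Fintype F] (hF : Fintype.card F = 243)
    (H : Subgroup ↥(chevE8.group (ZMod 3))) : IsEmpty (↥H ≃* ProjectiveSpecialLinearGroup (Fin 2) F) := by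
  classical
  refine ⟨fun e => ?_⟩
  have : Fact (Nat.Prime 3) := ⟨Nat.prime_three⟩
  have hchF : CharP F 3 := by
    obtain ⟨⟨m, hm⟩, hp', hcard⟩ := FiniteField.card F (ringChar F)
    rw [hF] at hcard
    have h1 : ringChar F ∣ 3 ^ 5 := by
      rw [show (3 : ℕ) ^ 5 = 243 by norm_num, hcard]
      exact dvd_pow_self _ (by simpa using hm.ne')
    have h2 := (Nat.prime_dvd_prime_iff_eq hp' Nat.prime_three).1 (hp'.dvd_of_dvd_pow h1)
    exact h2 ▸ ringChar.charP F
  obtain ⟨φ, hφ⟩ := exists_hom H e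
  let ρ := rep (RingHom.id (ZMod 3)) φ
  have h1 : φ (h (-1)) = 1 := (hφ _).2 (h_mem_center.2 (by rw [neg_one_sq]))
  have h2 : φ w ^ 2 = 1 := by rw [pow_two, ← map_mul, w_w, h1]
  have h3 : φ w ≠ 1 := fun h0 => w_not_mem_center ((hφ _).1 h0)
  obtain ⟨a, s, m, m', e1, e2, e3⟩ := Cfsg.Agent.H943.SL2Mod.five (k := ZMod 3) (by rw [ZMod.card]) hF
    (Module.finrank (ZMod 3) (chevE8.Idx → ZMod 3)) (chevE8.Idx → ZMod 3) ρ (rep_eq_one _ _ h1) rfl
  rw [Module.finrank_fintype_fun_eq_card, card_idx] at e1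
  have h4 := finrank_invol h2 h3
  have e4 : ρ w = Matrix.toLin' (((φ w : ↥(chevE8.group (ZMod 3))) : GL chevE8.Idx (ZMod 3)) :
        Matrix chevE8.Idx chevE8.Idx (ZMod 3)) := by
    show Matrix.toLin' ((((φ w : ↥(chevE8.group (ZMod 3))) : GL chevE8.Idx (ZMod 3)) :
        Matrix chevE8.Idx chevE8.Idx (ZMod 3)).map (RingHom.id (ZMod 3))) = _
    congr 1
  unfold eig at e2
  rw [e4] at e2
  rcases h4 with h4 | h4
  · rw [h4] at e2
    omega
  · rw [h4] at e2
    omega

end Cfsg.Agent.H943.L243
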