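import Cfsg.Agent.H525.E8L.Dims
import Cfsg.Agent.H943.TorZ
import Cfsg.Agent.H943.En40
import Cfsg.Agent.H943.Cert
import Cfsg.Agent.H943.L243

/-!
# The classes of the elements of order 40 of `L2(81)` in `E8(3)` (helper943, S5921)
-/

set_option autoImplicit false
set_option linter.unusedSectionVars false
set_option maxRecDepth 100000

namespace Cfsg.Agent.H943.ClassA

open Matrix
open Cfsg Cfsg.Lie Cfsg.Lie.ChevalleyDatum
open Cfsg.Agent.ChevalleyStructure Cfsg.Agent.ChevalleyStructure.Elts Cfsg.Agent.ChevalleyStructure.CoxeterGeomTypes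
open Cfsg.Agent.H943.SL2Rel Cfsg.Agent.H943.PSLHom Cfsg.Agent.H943.RepAdd Cfsg.Agent.H943.Cert
open Cfsg.Agent.H942.E8Alc Cfsg.Agent.H944.Tab Cfsg.Agent.H944.RootVals Cfsg.Agent.H943.TorZ
open Cfsg.Agent.H525.E8L

/-- the root values are stable under the Frobenius map -/
theorem stable {x : G8} {N : ℕ} (hN0 : N ≠ 0) (hN : N.Coprime 3) (hx : x ^ N = 1) {ζ : KK}
    (hζ : IsPrimitiveRoot ζ N) {v : Fin 8 → ZMod N} (h : TorZ ζ x N v) :
    ms chevE8 8 v = (ms chevE8 8 v).map (fun a => 3 * a) := by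
  classical
  have : Fact (Nat.Prime 3) := ⟨Nat.prime_three⟩
  have : NeZero N := ⟨hN0⟩
  obtain ⟨v', hv', hd⟩ := Cfsg.Agent.H943.TorDim.exists_vals_dim H942.E8Tab.e8T 3 (F := ZMod 3) (x := x) hN0 hN hx hζ
  have e1 : ms chevE8 8 v = ms chevE8 8 v' := by
    ext j
    have h1 := h.dims hζ j
    have h2 := hd (ζ ^ j.val)
    rw [h1] at h2
    have h3 : (Multiset.replicate chevE8.rank (1 : KK) + (ms chevE8 8 v').map (fun b => ζ ^ b.val)).count (ζ ^ j.val) =
        (if j = 0 then 8 else 0) + (ms chevE8 8 v').count j := by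
      rw [Multiset.count_add, Multiset.count_replicate]
      congr 1
      · have h4 : ((1 : KK) = ζ ^ j.val) ↔ j = 0 := by
          rw [← val_inj hζ (a := j) (b := 0), ZMod.val_zero, pow_zero]
          exact eq_comm
        simp only [h4]
        rfl
      · rw [Multiset.count_map, Multiset.count_eq_card_filter_eq]
        congr 1
        refine Multiset.filter_congr fun a _ => ?_
        rw [val_inj hζ]
    rw [h3] at h2
    exact Nat.add_left_cancel h2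
  rw [e1]
  have h5 := hv'.frob
  rw [Nat.card_zmod] at h5
  exact h5

/-- the functionals -/
def tab40 : ℕ → List ℤ
  | 0 => [0, 0, 0, 0, 0, 0, 0, 2, 0, 0, 0, 2, 0, 0, 0, 0, 0, 2, 0, 2, -8, 2, 0, 2, 0, 0, 0, 0, 0, 2, 0, 0, 0, 2, 0, 0, 0, 0, 0, 0]
  | 1 => [0, 0, 0, 0, 0, 0, 0, 0, 8, 0, -8, 0, 0, 0, 0, 0, 8, 0, 0, 0, -8, 0, 0, 0, 8, 0, 0, 0, 0, 0, -8, 0, 8, 0, 0, 0, 0, 0, 0, 0]
  | 2 => [0, 0, 8, 0, -8, 8, 8, 32, -40, 0, 40, 32, -8, 0, 8, 8, -40, 32, 8, 32, -88, 32, 8, 32, -40, 8, 8, 0, -8, 32, 40, 0, -40, 32, 8, 8, -8, 0, 8, 0]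
  | 3 => [0, 8, -8, 8, -8, 8, -8, 8, -8, 8, -8, 8, -8, 8, -8, 8, -8, 8, -8, 8, -8, 8, -8, 8, -8, 8, -8, 8, -8, 8, -8, 8, -8, 8, -8, 8, -8, 8, -8, 8]
  | _ => [0, 0, 2, 0, -2, 2, 2, -4, 2, 0, 4, -4, -2, 0, 2, 2, 2, -4, 2, -4, 8, -4, 2, -4, 2, 2, 2, 0, -2, -4, 4, 0, 2, -4, 2, 2, -2, 0, 2, 0]

/-- the functionals on the weights modulo 80 -/
def f40 (c κ : ℕ) : ℤ := if κ % 2 = 1 then 0 else (tab40 c).getD (κ / 2) 0

theorem chk40 : ((List.range 5).all fun c => (List.range 41).all fun i =>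
    decide (0 ≤ ((digs 4 (2 * i)).map fun m => f40 c (SL2Mod.wtOf 80 (2 * i) m)).sum)) = true := by
  decide +kernel

theorem f40_nonneg {k : Type*} [Field k] [DecidableEq k] [CharP k 3] {c : ℕ} (hc : c < 5) {b : ℕ} (hb : b ≤ 80)
    (he : Even b) : 0 ≤ ∑ m ∈ SL2Mod.Bf k b, f40 c (SL2Mod.wtOf 80 b m) := by
  have hb3 : b < 3 ^ 4 := by norm_num; omega
  rw [Bf_eq hb3, List.sum_toFinset _ (nodup_digs 4 b)]
  obtain ⟨i, rfl⟩ := he
  rw [← two_mul]
  have h1 := List.all_eq_true.1 (List.all_eq_true.1 chk40 c (List.mem_range.2 hc)) i (List.mem_range.2 (by omega))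
  exact of_decide_eq_true h1

section

variable {F : Type} [Field F] [Fintype F]

/-- the values of the functionals on the natural module are nonnegative -/
theorem fun40 (hcard : Fintype.card F = 81) (ι : F →+* KK) (φ : SpecialLinearGroup (Fin 2) F →* G8)
    (hk : ∀ g, φ g = 1 ↔ g ∈ Subgroup.center (SpecialLinearGroup (Fin 2) F)) {lam : Fˣ}
    (hlam : ∀ x, x ∈ Subgroup.zpowers lam) {v : Fin 8 → ZMod 40} (h : TorZ (ι lam ^ 2) (φ (SL2Rel.h lam)) 40 v)
    {c : ℕ} (hc : c < 5) :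
    0 ≤ ∑ j ∈ Finset.range 40, (tab40 c).getD j 0 * ((if j = 0 then 8 else 0 : ℤ) +
      ((ms chevE8 8 v).count (j : ZMod 40) : ℤ)) := by
  classical
  have : Fact (Nat.Prime 3) := ⟨Nat.prime_three⟩
  have hchF : CharP F 3 := by
    obtain ⟨⟨m, hm⟩, hp', hc⟩ := FiniteField.card F (ringChar F)
    rw [hcard] at hc
    have h1 : ringChar F ∣ 3 ^ 4 := by
      rw [show (3 : ℕ) ^ 4 = 81 by norm_num, hc]
      exact dvd_pow_self _ (by simpa using hm.ne')
    have h2 := (Nat.prime_dvd_prime_iff_eq hp' Nat.prime_three).1 (hp'.dvd_of_dvd_pow h1)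
    exact h2 ▸ ringChar.charP F
  have hchk : CharP KK 3 := charP_of_injective_algebraMap (algebraMap (ZMod 3) KK).injective 3
  have hodd : Odd (Fintype.card F) := by rw [hcard]; decide
  have hζ := prim40 hcard ι hlam
  have hh1 : φ (SL2Rel.h (-1)) = 1 := (hk _).2 (h_mem_center.2 (by rw [neg_one_sq]))
  have hfin := Cfsg.Agent.H943.SL2Mod.fun_nonneg ι 3 (by norm_num) ι.injective hodd hlam (f40 c) 248
    (fun b hb he _ => by
      rw [hcard] at hb ⊢
      exact f40_nonneg hc hb he) 248 (chevE8.Idx → KK) (rK φ) (rep_eq_one _ _ hh1)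
    (by rw [Module.finrank_fintype_fun_eq_card, Cfsg.Agent.H943.L243.card_idx]) le_rfl
  unfold Cfsg.Agent.H943.SL2Mod.Phi at hfin
  rw [hcard] at hfin
  refine hfin.trans (le_of_eq ?_)
  have h2 : ∀ n : ℕ, ∀ g : ℕ → ℤ, (∀ κ, κ % 2 = 1 → g κ = 0) →
      ∑ κ ∈ Finset.range (2 * n), g κ = ∑ j ∈ Finset.range n, g (2 * j) := by
    intro n g hg
    induction n with
    | zero => rfl
    | succ n ih =>
      rw [show 2 * (n + 1) = 2 * n + 1 + 1 by ring, Finset.sum_range_succ, Finset.sum_range_succ, ih,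
        Finset.sum_range_succ, hg (2 * n + 1) (by omega), add_zero]
  rw [show (81 - 1 : ℕ) = 2 * 40 by norm_num, h2 40 _ fun κ hκ => by
    show f40 c κ * _ = 0
    unfold f40
    rw [if_pos hκ, zero_mul]]
  refine Finset.sum_congr rfl fun j hj => ?_
  have hlt := Finset.mem_range.1 hj
  have h3 : f40 c (2 * j) = (tab40 c).getD j 0 := by
    unfold f40
    rw [if_neg (by omega), Nat.mul_div_cancel_left _ (by norm_num)]
  rw [h3]
  congr 1
  have h4 := h.dims hζ (j : ZMod 40)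
  rw [ZMod.val_natCast, Nat.mod_eq_of_lt hlt] at h4
  have h5 : ((j : ZMod 40) = 0) ↔ j = 0 := by
    rw [ZMod.natCast_eq_zero_iff]
    constructor
    · intro h4
      exact Nat.eq_zero_of_dvd_of_lt h4 hlt
    · rintro rfl
      exact dvd_zero _
  simp only [h5] at h4
  have h6 : Module.finrank KK (eig (rK φ) (SL2Rel.h lam) (ι lam ^ (2 * j))) =
      (if j = 0 then 8 else 0) + (ms chevE8 8 v).count (j : ZMod 40) := by
    rw [← h4, ← pow_mul]
    rfl
  rw [h6]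
  push_cast
  rfl

end

/-- the sum of a functional -/
def S40 (c : ℕ) (n : ℕ → ℕ) : ℤ := ∑ j ∈ Finset.range 40, (tab40 c).getD j 0 * ((if j = 0 then 8 else 0 : ℤ) + (n j : ℤ))

section Lin

variable {n : ℕ → ℕ}
    (e1 : n 3 = n 1) (e2 : n 9 = n 3) (e3 : n 27 = n 9) (e4 : n 6 = n 2) (e5 : n 18 = n 6) (e6 : n 14 = n 18)
    (e7 : n 21 = n 7) (e8 : n 23 = n 21) (e9 : n 29 = n 23) (e10 : n 12 = n 4) (e11 : n 36 = n 12) (e12 : n 28
    = n 36) (e13 : n 15 = n 5) (e14 : n 24 = n 8) (e15 : n 32 = n 24) (e16 : n 16 = n 32) (e17 : n 30 = n 10)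
    (e18 : n 39 = n 1) (e19 : n 37 = n 3) (e20 : n 31 = n 9) (e21 : n 13 = n 27) (e22 : n 38 = n 2) (e23 : n
    34 = n 6) (e24 : n 22 = n 18) (e25 : n 26 = n 14) (e26 : n 33 = n 7) (e27 : n 19 = n 21) (e28 : n 17 = n
    23) (e29 : n 11 = n 29) (e30 : n 35 = n 5) (e31 : n 25 = n 15)

include e1 e2 e3 e4 e5 e6 e7 e8 e9 e10 e11 e12 e13 e14 e15 e16 e17 e18 e19 e20 e21 e22 e23 e24 e25 e26 e27 e28 e29 e30 e31

theorem S40_0 : S40 0 n = 16 * n 7 - 8 * n 20 := by
  simp only [S40, tab40, Finset.sum_range_succ, Finset.sum_range_zero, List.getD_cons_succ, List.getD_cons_zero,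
    OfNat.ofNat_ne_zero, one_ne_zero, if_true, if_false]
  omega

theorem S40_1 : S40 1 n = 32 * n 8 - 16 * n 10 - 8 * n 20 := by
  simp only [S40, tab40, Finset.sum_range_succ, Finset.sum_range_zero, List.getD_cons_succ, List.getD_cons_zero,
    OfNat.ofNat_ne_zero, one_ne_zero, if_true, if_false]
  omega

theorem S40_2 : S40 2 n = 8 * (8 * n 2 - 4 * n 4 + 4 * n 5 + 32 * n 7 - 20 * n 8 + 10 * n 10 - 11 * n 20) := by
  simp only [S40, tab40, Finset.sum_range_succ, Finset.sum_range_zero, List.getD_cons_succ, List.getD_cons_zero,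
    OfNat.ofNat_ne_zero, one_ne_zero, if_true, if_false]
  omega

theorem S40_3 : S40 3 n = 8 * (8 * n 1 - 8 * n 2 - 4 * n 4 + 4 * n 5 + 8 * n 7 - 4 * n 8 - 2 * n 10 - n 20) := by
  simp only [S40, tab40, Finset.sum_range_succ, Finset.sum_range_zero, List.getD_cons_succ, List.getD_cons_zero,
    OfNat.ofNat_ne_zero, one_ne_zero, if_true, if_false]
  omega

theorem S40_4 : S40 4 n = 8 * (2 * n 2 - n 4 + n 5 - 4 * n 7 + n 8 + n 10 + n 20) := by
  simp only [S40, tab40, Finset.sum_range_succ, Finset.sum_range_zero, List.getD_cons_succ, List.getD_cons_zero,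
    OfNat.ofNat_ne_zero, one_ne_zero, if_true, if_false]
  omega

end Lin

theorem vecL_zero : vecL 40 [0, 0, 0, 0, 0, 0, 0, 0] = 0 := by decide

theorem mem_final {Y : List ℕ} (h : Y ∈ En.list40) (h0 : Y ≠ [0, 0, 0, 0, 0, 0, 0, 0]) :
    Y ∈ [Y1, Y2, Y3, Y4, Y5, [1, 2, 2, 1, 1, 1, 1, 1], Y7] := by
  unfold En.list40 at h
  rcases List.mem_cons.1 h with h | h
  · exact absurd h h0
  revert h
  have key : ∀ Z ∈ ([[1,2,2,1,1,1,1,1],[3,0,0,0,0,1,1,7],[7,0,0,0,0,1,2,6],[3,0,0,3,1,0,1,0],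
    [5,0,0,1,0,2,0,1],[3,1,1,1,1,1,1,1],[1,1,1,1,1,3,1,2]] : List (List ℕ)),
    Z ∈ [Y1, Y2, Y3, Y4, Y5, [1, 2, 2, 1, 1, 1, 1, 1], Y7] := by decide
  exact key Y

/-- **the classes of the elements of order 40** -/
theorem classes (F : Type) [Field F] [Fintype F] (hcard : Fintype.card F = 81) (ι : F →+* KK)
    (φ : SpecialLinearGroup (Fin 2) F →* G8)
    (hk : ∀ g, φ g = 1 ↔ g ∈ Subgroup.center (SpecialLinearGroup (Fin 2) F))
    (lam : Fˣ) (hlam : ∀ x, x ∈ Subgroup.zpowers lam) :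
    ∃ Y ∈ [Y1, Y2, Y3, Y4, Y5, [1, 2, 2, 1, 1, 1, 1, 1], Y7], TorZ (ι lam ^ 2) (φ (SL2Rel.h lam)) 40 (vecL 40 Y) := by
  have hζ := prim40 hcard ι hlam
  obtain ⟨hx, hx20⟩ := y_pow φ hk hcard hlam
  obtain ⟨v, hv⟩ := exists_torZ (N := 40) (by norm_num) (by norm_num) hx hζ
  obtain ⟨Y, hl, hθ, hY⟩ := exists_alcZ (by norm_num) hζ v hv
  have hst := stable (by norm_num) (by norm_num) hx hζ hY
  obtain ⟨n, hn⟩ : ∃ n : ℕ → ℕ, ∀ r, n r = (ms chevE8 8 (vecL 40 Y)).count ((r : ℕ) : ZMod 40) := ⟨_, fun r => rfl⟩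
  have h3 : Function.Injective fun a : ZMod 40 => 3 * a := by
    intro a b h
    have h1 : (27 : ZMod 40) * (3 * a) = 27 * (3 * b) := congrArg (fun z => 27 * z) h
    rw [← mul_assoc, ← mul_assoc, show (27 : ZMod 40) * 3 = 1 by decide, one_mul, one_mul] at h1
    exact h1
  have hst' : ∀ c : ZMod 40, (ms chevE8 8 (vecL 40 Y)).count (3 * c) = (ms chevE8 8 (vecL 40 Y)).count c := by
    intro c
    conv_lhs => rw [hst]
    exact Multiset.count_map_eq_count' _ _ h3 c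
  have hs : ∀ r r' : ℕ, (3 : ZMod 40) * (r : ZMod 40) = (r' : ZMod 40) → n r' = n r := by
    intro r r' h
    rw [hn, hn, ← h, hst']
  have hneg : ∀ r r' : ℕ, r + r' = 40 → 0 < r → 0 < r' → n r' = n r := by
    intro r r' h hr hr'
    rw [hn, hn, show vecL 40 Y = H943.E8Tab.vecOf 40 Y from rfl,
      En.count_vec Y hθ hr (by omega), En.count_vec Y hθ hr' (by omega), show 40 - r = r' by omega,
      show 40 - r' = r by omega, add_comm]
  have e1 : n 3 = n 1 := hs 1 3 (by decide)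
  have e2 : n 9 = n 3 := hs 3 9 (by decide)
  have e3 : n 27 = n 9 := hs 9 27 (by decide)
  have e4 : n 6 = n 2 := hs 2 6 (by decide)
  have e5 : n 18 = n 6 := hs 6 18 (by decide)
  have e6 : n 14 = n 18 := hs 18 14 (by decide)
  have e7 : n 21 = n 7 := hs 7 21 (by decide)
  have e8 : n 23 = n 21 := hs 21 23 (by decide)
  have e9 : n 29 = n 23 := hs 23 29 (by decide)
  have e10 : n 12 = n 4 := hs 4 12 (by decide)
  have e11 : n 36 = n 12 := hs 12 36 (by decide)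
  have e12 : n 28 = n 36 := hs 36 28 (by decide)
  have e13 : n 15 = n 5 := hs 5 15 (by decide)
  have e14 : n 24 = n 8 := hs 8 24 (by decide)
  have e15 : n 32 = n 24 := hs 24 32 (by decide)
  have e16 : n 16 = n 32 := hs 32 16 (by decide)
  have e17 : n 30 = n 10 := hs 10 30 (by decide)
  have e18 : n 39 = n 1 := hneg 1 39 (by norm_num) (by norm_num) (by norm_num)
  have e19 : n 37 = n 3 := hneg 3 37 (by norm_num) (by norm_num) (by norm_num)
  have e20 : n 31 = n 9 := hneg 9 31 (by norm_num) (by norm_num) (by norm_num)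
  have e21 : n 13 = n 27 := hneg 27 13 (by norm_num) (by norm_num) (by norm_num)
  have e22 : n 38 = n 2 := hneg 2 38 (by norm_num) (by norm_num) (by norm_num)
  have e23 : n 34 = n 6 := hneg 6 34 (by norm_num) (by norm_num) (by norm_num)
  have e24 : n 22 = n 18 := hneg 18 22 (by norm_num) (by norm_num) (by norm_num)
  have e25 : n 26 = n 14 := hneg 14 26 (by norm_num) (by norm_num) (by norm_num)
  have e26 : n 33 = n 7 := hneg 7 33 (by norm_num) (by norm_num) (by norm_num)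
  have e27 : n 19 = n 21 := hneg 21 19 (by norm_num) (by norm_num) (by norm_num)
  have e28 : n 17 = n 23 := hneg 23 17 (by norm_num) (by norm_num) (by norm_num)
  have e29 : n 11 = n 29 := hneg 29 11 (by norm_num) (by norm_num) (by norm_num)
  have e30 : n 35 = n 5 := hneg 5 35 (by norm_num) (by norm_num) (by norm_num)
  have e31 : n 25 = n 15 := hneg 15 25 (by norm_num) (by norm_num) (by norm_num)
  have f0 : 0 ≤ S40 0 n := by
    have h0 := fun40 hcard ι φ hk hlam hY (c := 0) (by norm_num)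
    simp only [← hn] at h0
    exact h0
  have f1 : 0 ≤ S40 1 n := by
    have h0 := fun40 hcard ι φ hk hlam hY (c := 1) (by norm_num)
    simp only [← hn] at h0
    exact h0
  have f2 : 0 ≤ S40 2 n := by
    have h0 := fun40 hcard ι φ hk hlam hY (c := 2) (by norm_num)
    simp only [← hn] at h0
    exact h0
  have f3 : 0 ≤ S40 3 n := by
    have h0 := fun40 hcard ι φ hk hlam hY (c := 3) (by norm_num)
    simp only [← hn] at h0
    exact h0
  have f4 : 0 ≤ S40 4 n := by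
    have h0 := fun40 hcard ι φ hk hlam hY (c := 4) (by norm_num)
    simp only [← hn] at h0
    exact h0
  rw [S40_0 e1 e2 e3 e4 e5 e6 e7 e8 e9 e10 e11 e12 e13 e14 e15 e16 e17 e18 e19 e20 e21 e22 e23 e24 e25 e26 e27 e28 e29 e30 e31] at f0
  rw [S40_1 e1 e2 e3 e4 e5 e6 e7 e8 e9 e10 e11 e12 e13 e14 e15 e16 e17 e18 e19 e20 e21 e22 e23 e24 e25 e26 e27 e28 e29 e30 e31] at f1
  rw [S40_2 e1 e2 e3 e4 e5 e6 e7 e8 e9 e10 e11 e12 e13 e14 e15 e16 e17 e18 e19 e20 e21 e22 e23 e24 e25 e26 e27 e28 e29 e30 e31] at f2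
  rw [S40_3 e1 e2 e3 e4 e5 e6 e7 e8 e9 e10 e11 e12 e13 e14 e15 e16 e17 e18 e19 e20 e21 e22 e23 e24 e25 e26 e27 e28 e29 e30 e31] at f3
  rw [S40_4 e1 e2 e3 e4 e5 e6 e7 e8 e9 e10 e11 e12 e13 e14 e15 e16 e17 e18 e19 e20 e21 e22 e23 e24 e25 e26 e27 e28 e29 e30 e31] at f4
  have hmem : Y ∈ En.list40 := by
    refine En.enum40 hl hθ hst' n hn ?_ ?_ ?_ ?_ ?_
    all_goals clear hl hθ hY hst hst' hn hs hneg
    all_goals omega
  have hne : Y ≠ [0, 0, 0, 0, 0, 0, 0, 0] := by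
    intro h0
    refine hx20 ?_
    have h1 : φ (SL2Rel.h lam) = 1 := eq_one_of_zero hY (by
      rw [h0]
      exact vecL_zero)
    rw [h1, one_pow]
  refine ⟨Y, ?_, hY⟩
  exact mem_final hmem hne

end Cfsg.Agent.H943.ClassA
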