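import Mathlib
import Cfsg.Agent.H943.E8Alc
import Cfsg.Agent.H943.AlcTab

/-!
# The second stage of the classification of vectors modulo `7 * 13` for `E8` (helper943)
-/

set_option autoImplicit false
set_option maxRecDepth 100000

namespace Cfsg.Agent.H943.E91

open Cfsg.Agent.ChevalleyStructure.CoxeterGeom Cfsg.Agent.Tits.Roots
  Cfsg.Agent.Nodes.RGDChev
open Cfsg.Lie Cfsg.Agent.ChevalleyStructure Cfsg.Agent.ChevalleyStructure.Elts
  Cfsg.Agent.ChevalleyStructure.RootVec Cfsg.Agent.ChevalleyStructure.RootVecTab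
  Cfsg.Agent.ChevalleyStructure.NPerm Cfsg.Agent.ChevalleyStructure.CoxeterGeomTypes
open Cfsg.Agent.H944.RootVals Cfsg.Agent.H944.Kac Cfsg.Agent.H944.Tab
open Cfsg.Agent.H943.E8Tab
open Cfsg.Agent.H943.Alc (A8 sv dot toF srL bv Q exists_min le_of_min perm_of_list)

/-- reduction modulo 7 -/
abbrev p₁ : ZMod (7 * 13) →+* ZMod 7 := ZMod.castHom (Dvd.intro _ rfl) (ZMod 7)

/-- reduction modulo 13 -/
abbrev p₂ : ZMod (7 * 13) →+* ZMod 13 := ZMod.castHom (Dvd.intro_left _ rfl) (ZMod 13)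

/-- invariance under the multiplication by 3 -/
def Inv3 (v : Fin 8 → ZMod (7 * 13)) : Prop :=
  ms chevE8 8 v = (ms chevE8 8 v).map (fun a => ((3 : ℕ) : ZMod (7 * 13)) * a)

theorem cartan_A8 : ∀ i j : Fin 8, cartanOf chevE8 8 j i = A8 i j := by decide +kernel

theorem srefl_int {N : ℕ} (j : Fin 8) (t : Fin 8 → ℤ) :
    srefl chevE8 8 j (fun i => ((t i : ℤ) : ZMod N)) = fun i => ((sv A8 j t i : ℤ) : ZMod N) := by
  funext i
  unfold srefl sv
  rw [cartan_A8]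
  push_cast
  rfl

/-- **minimal second components** -/
theorem stageB (Y : List ℕ) (J : Finset (Fin 8)) (RJ : List (List ℤ)) (r : Fin 8 → ℕ)
    (hJY : ∀ j ∈ J, Y.getD (j : ℕ) 0 = 0) (hlen : ∀ a ∈ RJ, a.length = 8)
    (h1 : ∀ j ∈ J, (RJ.map (srL (j : Fin 8))).Perm RJ)
    (h2 : ∀ j ∈ J, (Pi.single j 1 : Fin 8 → ℤ) ∈ RJ.map toF) (h3 : ∀ a ∈ RJ.map toF, ∀ i, i ∉ J → a i = 0)
    (h4 : ∀ j ∈ J, ∑ i, (r i : ℤ) * A8 i j = 2) (h5 : ∀ i, i ∉ J → r i = 0)
    {v : Fin 8 → ZMod (7 * 13)} (hv : (fun i => p₁ (v i)) = vecOf 7 Y) (h13 : (fun i => p₂ (v i)) ≠ 0) :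
    ∃ u : Fin 8 → ℕ, (∀ i, i ∉ J → u i < 13) ∧ (∃ v' : Fin 8 → ZMod (7 * 13), (fun i => p₁ (v' i)) = vecOf 7 Y ∧
      (fun i => p₂ (v' i)) = (fun i => ((u i : ℕ) : ZMod 13)) ∧ ms chevE8 8 v' = ms chevE8 8 v ∧
      (fun i => p₂ (v' i)) ≠ 0) ∧
      ∀ d : Fin 8 → ℤ, 2 * dot (bv (RJ.map toF) d) (fun i => (u i : ℤ)) ≤ 13 * Q (RJ.map toF) d := by
  let T : (Fin 8 → ℤ) → Prop := fun t => ∃ v' : Fin 8 → ZMod (7 * 13), (fun i => p₁ (v' i)) = vecOf 7 Y ∧
      (fun i => p₂ (v' i)) = (fun i => ((t i : ℤ) : ZMod 13)) ∧ ms chevE8 8 v' = ms chevE8 8 v ∧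
      (fun i => p₂ (v' i)) ≠ 0
  have hne : ∃ t, T t := by
    refine ⟨fun i => ((p₂ (v i)).val : ℤ), v, hv, ?_, rfl, h13⟩
    funext i
    push_cast
    exact (ZMod.natCast_zmod_val _).symm
  have hs : ∀ j ∈ J, ∀ t, T t → T (sv A8 j t) := by
    rintro j hj t ⟨v', e1, e2, e3, e4⟩
    refine ⟨srefl chevE8 8 j v', ?_, ?_, ?_, ?_⟩
    · rw [← srefl_map, e1]
      funext i
      have hz : vecOf 7 Y j = 0 := by
        unfold vecOf
        rw [hJY j hj, Nat.cast_zero]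
      unfold srefl
      rw [hz, mul_zero, sub_zero]
    · rw [← srefl_map, e2, srefl_int]
    · rw [ms_srefl e8T, e3]
    · intro h0
      rw [← srefl_map] at h0
      exact e4 (srefl_eq_zero e8T h0)
  have ht : ∀ t d, T t → T (t + (13 : ℤ) • d) := by
    rintro t d ⟨v', e1, e2, e3, e4⟩
    refine ⟨v', e1, ?_, e3, e4⟩
    rw [e2]
    funext i
    rw [Pi.add_apply, Pi.smul_apply, smul_eq_mul]
    push_cast
    have : (13 : ZMod 13) = 0 := by decide
    rw [this, zero_mul, add_zero]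
  obtain ⟨t, ⟨v', e1, e2, e3, e4⟩, hJ, hnJ, hmin⟩ := exists_min A8 J (RJ.map toF) r (N := 13) (by norm_num)
    (fun j hj => perm_of_list hlen j (h1 j hj)) h2 h3 h4 h5 T hne hs ht
  have hpos : ∀ i, 0 ≤ t i := by
    intro i
    by_cases hi : i ∈ J
    · exact hJ i hi
    · exact (hnJ i hi).1
  have htn : ∀ i, (((t i).toNat : ℕ) : ℤ) = t i := fun i => Int.toNat_of_nonneg (hpos i)
  refine ⟨fun i => (t i).toNat, fun i hi => ?_, ⟨v', e1, ?_, e3, e4⟩, fun d => ?_⟩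
  · have h6 := (hnJ i hi).2
    have h7 := htn i
    have h8 : (((t i).toNat : ℕ) : ℤ) < 13 := by rw [h7]; exact h6
    exact_mod_cast h8
  · rw [e2]
    funext i
    conv_lhs => rw [← htn i]
    push_cast
    rfl
  · have h6 := le_of_min (by norm_num) hmin d
    have h7 : (fun i => (((t i).toNat : ℕ) : ℤ)) = t := funext htn
    rw [h7]
    exact h6

/-- the invariance of the part with trivial first component -/
theorem invJ_of {v : Fin 8 → ZMod (7 * 13)} (hq : Inv3 v) {Y U : List ℕ} (hY : (fun i => p₁ (v i)) = vecOf 7 Y)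
    (hU : (fun i => p₂ (v i)) = vecOf 13 U) :
    sumH (hh 13) (R8.filter fun r => Nat.beq (dotN r Y % 7) 0) U =
      sumH (fun t => hh 13 (3 * t)) (R8.filter fun r => Nat.beq (dotN r Y % 7) 0) U := by
  have h1 := sum_inv tab8 hq (fun a => if p₁ a = 0 then 256 ^ (p₂ a).val else 0)
  have hd1 : ∀ r ∈ R8, p₁ (dotF r v) = ((dotN r Y : ℕ) : ZMod 7) := by
    intro r hr
    rw [← dotF_vecOf (len8 r hr), ← hY]
    unfold dotF
    rw [map_sum]
    exact Finset.sum_congr rfl fun i _ => by rw [map_mul, map_natCast]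
  have hd2 : ∀ r ∈ R8, p₂ (dotF r v) = ((dotN r U : ℕ) : ZMod 13) := by
    intro r hr
    rw [← dotF_vecOf (len8 r hr), ← hU]
    unfold dotF
    rw [map_sum]
    exact Finset.sum_congr rfl fun i _ => by rw [map_mul, map_natCast]
  have h2 : ∀ t : ℕ, 256 ^ (t : ZMod 13).val + 256 ^ (-(t : ZMod 13)).val = hh 13 t := by
    intro t
    rw [hh, ZMod.val_natCast]
    rfl
  have h7 : ∀ t : ℕ, ((t : ZMod 7) = 0) ↔ Nat.beq (t % 7) 0 = true := by
    intro t
    rw [ZMod.natCast_eq_zero_iff, Nat.dvd_iff_mod_eq_zero, Nat.beq_eq]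
  have h37 : ∀ t : ZMod 7, ((3 : ℕ) : ZMod 7) * t = 0 ↔ t = 0 := by decide
  have key : ∀ (h : ℕ → ℕ) (R : List (List ℕ)), sumH h (R.filter fun r => Nat.beq (dotN r Y % 7) 0) U =
      (R.map fun r => if ((dotN r Y : ℕ) : ZMod 7) = 0 then h (dotN r U) else 0).sum := by
    intro h R
    induction R with
    | nil => rfl
    | cons r R ih =>
      rw [List.map_cons, List.sum_cons, ← ih]
      by_cases hr : ((dotN r Y : ℕ) : ZMod 7) = 0
      · rw [if_pos hr, List.filter_cons_of_pos (p := fun r => Nat.beq (dotN r Y % 7) 0) ((h7 _).1 hr)]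
        rfl
      · rw [if_neg hr, List.filter_cons_of_neg (p := fun r => Nat.beq (dotN r Y % 7) 0) (fun h' => hr ((h7 _).2 h')),
          zero_add]
  rw [key, key]
  have e1 : (R8.map fun r => ((if p₁ (dotF r v) = 0 then 256 ^ (p₂ (dotF r v)).val else 0) +
      (if p₁ (-dotF r v) = 0 then 256 ^ (p₂ (-dotF r v)).val else 0))) =
      R8.map fun r => if ((dotN r Y : ℕ) : ZMod 7) = 0 then hh 13 (dotN r U) else 0 := by
    refine List.map_congr_left fun r hr => ?_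
    rw [map_neg, map_neg, hd1 r hr, hd2 r hr]
    simp only [neg_eq_zero]
    split_ifs
    · exact h2 _
    · rfl
  have e2 : (R8.map fun r => ((if p₁ (((3 : ℕ) : ZMod (7 * 13)) * dotF r v) = 0 then
        256 ^ (p₂ (((3 : ℕ) : ZMod (7 * 13)) * dotF r v)).val else 0) +
      (if p₁ (-(((3 : ℕ) : ZMod (7 * 13)) * dotF r v)) = 0 then
        256 ^ (p₂ (-(((3 : ℕ) : ZMod (7 * 13)) * dotF r v))).val else 0))) =
      R8.map fun r => if ((dotN r Y : ℕ) : ZMod 7) = 0 then hh 13 (3 * dotN r U) else 0 := by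
    refine List.map_congr_left fun r hr => ?_
    rw [map_neg, map_neg, map_mul, map_mul, hd1 r hr, hd2 r hr, map_natCast p₁, map_natCast p₂, ← Nat.cast_mul 3 (dotN r U)]
    simp only [neg_eq_zero, h37]
    split_ifs
    · exact h2 _
    · rfl
  rw [← e1, ← e2]
  exact h1

/-- the vector from its two components -/
theorem eq_crt {v : Fin 8 → ZMod (7 * 13)} {Y U : List ℕ} (hYl : Y.length = U.length)
    (hY : (fun i => p₁ (v i)) = vecOf 7 Y) (hU : (fun i => p₂ (v i)) = vecOf 13 U) :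
    v = vecOf (7 * 13) (crt 78 14 91 Y U) := by
  have hco : Nat.Coprime 7 13 := by norm_num
  funext i
  unfold vecOf
  rw [crt_getD 78 14 91 Y U hYl]
  have hmod : (((78 * Y.getD (i : ℕ) 0 + 14 * U.getD (i : ℕ) 0) % 91 : ℕ) : ZMod (7 * 13)) =
      ((78 * Y.getD (i : ℕ) 0 + 14 * U.getD (i : ℕ) 0 : ℕ) : ZMod (7 * 13)) := ZMod.natCast_mod _ (7 * 13)
  rw [hmod]
  apply (ZMod.chineseRemainder hco).injective
  have h5 : ∀ z : ZMod (7 * 13), ZMod.chineseRemainder hco z = (p₁ z, p₂ z) := by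
    intro z
    apply Prod.ext
    · exact RingHom.congr_fun (Subsingleton.elim ((RingHom.fst _ _).comp (ZMod.chineseRemainder hco).toRingHom) p₁) z
    · exact RingHom.congr_fun (Subsingleton.elim ((RingHom.snd _ _).comp (ZMod.chineseRemainder hco).toRingHom) p₂) z
  rw [h5, h5]
  have hy := congrFun hY i
  have hu := congrFun hU i
  have e1 : ((78 : ℕ) : ZMod 7) = 1 := by decide
  have e2 : ((14 : ℕ) : ZMod 7) = 0 := by decide
  have e3 : ((78 : ℕ) : ZMod 13) = 0 := by decide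
  have e4 : ((14 : ℕ) : ZMod 13) = 1 := by decide
  apply Prod.ext
  · show p₁ _ = p₁ _
    rw [map_natCast, Nat.cast_add, Nat.cast_mul, Nat.cast_mul, e1, e2, zero_mul, add_zero, one_mul]
    exact hy
  · show p₂ _ = p₂ _
    rw [map_natCast, Nat.cast_add, Nat.cast_mul, Nat.cast_mul, e3, e4, zero_mul, zero_add, one_mul]
    exact hu

theorem invB_crt {v : Fin 8 → ZMod (7 * 13)} (hq : Inv3 v) {Y U : List ℕ} (hYl : Y.length = U.length)
    (hY : (fun i => p₁ (v i)) = vecOf 7 Y) (hU : (fun i => p₂ (v i)) = vecOf 13 U) :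
    invB 91 3 R8 (crt 78 14 91 Y U) = true := by
  refine invB_of (N := 91) (by norm_num) tab8 len8 ?_
  have h1 := eq_crt hYl hY hU
  have h2 : Inv3 (vecOf (7 * 13) (crt 78 14 91 Y U)) := by rw [← h1]; exact hq
  exact h2

end Cfsg.Agent.H943.E91
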