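import Mathlib
import Cfsg.Agent.H943.E91b

/-!
# The classification of the vectors modulo `7 * 13` (helper943)
-/

set_option autoImplicit false
set_option maxRecDepth 100000
set_option maxHeartbeats 1000000

namespace Cfsg.Agent.H943.E91

open Cfsg.Agent.ChevalleyStructure.CoxeterGeom Cfsg.Agent.Tits.Roots
  Cfsg.Agent.Nodes.RGDChev
open Cfsg.Lie Cfsg.Agent.ChevalleyStructure Cfsg.Agent.ChevalleyStructure.Elts
  Cfsg.Agent.ChevalleyStructure.RootVec Cfsg.Agent.ChevalleyStructure.RootVecTab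
  Cfsg.Agent.ChevalleyStructure.NPerm Cfsg.Agent.ChevalleyStructure.CoxeterGeomTypes
open Cfsg.Agent.H944.RootVals Cfsg.Agent.H944.Kac Cfsg.Agent.H944.Tab
open Cfsg.Agent.H943.E8Tab Cfsg.Agent.H943.Cert
open Cfsg.Agent.H943.Alc (A8 sv dot toF srL bv Q)

/-- roots of `D4A2` -/
def RZ38 : List (List ℤ) := Alc.R8.filter fun a => (a.getD 0 0 == 0) && (a.getD 5 0 == 0)

/-- roots of `E6` -/
def RZ80 : List (List ℤ) := Alc.R8.filter fun a => (a.getD 6 0 == 0) && (a.getD 7 0 == 0)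

/-- zero nodes -/
def J38 : Finset (Fin 8) := {1, 2, 3, 4, 6, 7}

/-- zero nodes -/
def J80 : Finset (Fin 8) := {0, 1, 2, 3, 4, 5}

/-- sum of the positive roots -/
def r38 : Fin 8 → ℕ := ![0, 6, 6, 10, 6, 0, 2, 2]

/-- sum of the positive roots -/
def r80 : Fin 8 → ℕ := ![16, 22, 30, 42, 30, 16, 0, 0]

theorem con {RJ : List (Fin 8 → ℤ)} {u : Fin 8 → ℕ} {d b : Fin 8 → ℤ} {c : ℤ} (hb : bv RJ d = b) (hc : Q RJ d = c)
    (h : 2 * dot (bv RJ d) (fun i => (u i : ℤ)) ≤ 13 * Q RJ d) :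
    2 * (b 0 * u 0 + b 1 * u 1 + b 2 * u 2 + b 3 * u 3 + b 4 * u 4 + b 5 * u 5 + b 6 * u 6 + b 7 * u 7) ≤ 13 * c := by
  rw [hb, hc] at h
  unfold dot at h
  rw [Fin.sum_univ_eight] at h
  exact h

theorem vecOf_list {N : ℕ} (u : Fin 8 → ℕ) :
    (fun i => ((u i : ℕ) : ZMod N)) = vecOf N [u 0, u 1, u 2, u 3, u 4, u 5, u 6, u 7] := by
  funext i
  fin_cases i <;> rfl

/-- the final test is passed -/
theorem fin_of {Y U : List ℕ} {B : List (ℕ × List ℕ)} (hB : chkB 7 13 3 8 R8 Y B = true)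
    (hYl : Y.length = U.length) {v : Fin 8 → ZMod (7 * 13)} (hq : Inv3 v) (hY : (fun i => p₁ (v i)) = vecOf 7 Y)
    (hU : (fun i => p₂ (v i)) = vecOf 13 U) (h13 : (fun i => p₂ (v i)) ≠ 0) (h : fin Y B U = true) :
    certOK (crt 78 14 91 Y U) = true := by
  unfold fin at h
  have h1 : B.all (fun cb => Nat.beq (dotN cb.2 U % 13) 0) = true := by
    rw [List.all_eq_true]
    intro cb hcb
    rw [Nat.beq_eq]
    have hlen : cb.2.length ≤ 8 := by
      rw [chkB, List.all_eq_true] at hB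
      have hB1 := hB cb hcb
      rw [Bool.and_eq_true, Bool.and_eq_true, decide_eq_true_iff, decide_eq_true_iff] at hB1
      exact hB1.1.2
    have h2 := lin_of (N₁ := 7) (N₂ := 13) (by norm_num) tab8 len8 hq (fun i => congrFun hY i) hB cb hcb
    refine Nat.mod_eq_zero_of_dvd ((ZMod.natCast_eq_zero_iff _ _).1 ?_)
    rw [dotN_eq 8 _ _ hlen, ← h2]
    push_cast
    refine Finset.sum_congr rfl fun i _ => ?_
    congr 1
    exact (congrFun hU i).symm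
  rw [h1, cond_true, invB_crt hq hYl hY hU, cond_true] at h
  cases hz : isZ U with
  | true =>
    exfalso
    refine h13 ?_
    rw [hU]
    funext i
    unfold vecOf
    have h2 : U.getD (i : ℕ) 0 = 0 := by
      by_cases hi : (i : ℕ) < U.length
      · rw [List.getD_eq_getElem _ _ hi]
        exact isZ_spec U hz _ (List.getElem_mem _)
      · rw [List.getD_eq_default _ _ (by omega)]
    rw [h2, Nat.cast_zero]
    rfl
  | false =>
    rw [hz, cond_false] at h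
    exact h

theorem case38 {v : Fin 8 → ZMod (7 * 13)} (hq : Inv3 v) (hv : (fun i => p₁ (v i)) = vecOf 7 s38)
    (h13 : (fun i => p₂ (v i)) ≠ 0) :
    ∃ V : List ℕ, certOK V = true ∧ ms chevE8 8 (vecOf (7 * 13) V) = ms chevE8 8 v := by
  obtain ⟨u, hu13, ⟨v', e1, e2, e3, e4⟩, hmin⟩ := stageB s38 J38 RZ38 r38 (by decide +kernel) (by decide +kernel)
    (by decide +kernel) (by decide +kernel) (by decide +kernel) (by decide +kernel) (by decide +kernel) hv h13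
  have hq' : Inv3 v' := by
    unfold Inv3
    rw [e3]
    exact hq
  have c1 : 2 * ((0 : ℤ) * u 0 + 12 * u 1 + 6 * u 2 + 12 * u 3 + 6 * u 4 + 0 * u 5 + 0 * u 6 + 0 * u 7) ≤ 13 * 12 :=
    con (d := toF [0, 1, 0, 0, 0, 0, 0, 0]) (b := toF [0, 12, 6, 12, 6, 0, 0, 0]) (by decide +kernel) (by decide +kernel)
      (hmin _)
  have c2 : 2 * ((0 : ℤ) * u 0 + 6 * u 1 + 12 * u 2 + 12 * u 3 + 6 * u 4 + 0 * u 5 + 0 * u 6 + 0 * u 7) ≤ 13 * 12 :=
    con (d := toF [0, 0, 1, 0, 0, 0, 0, 0]) (b := toF [0, 6, 12, 12, 6, 0, 0, 0]) (by decide +kernel) (by decide +kernel)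
      (hmin _)
  have c3 : 2 * ((0 : ℤ) * u 0 + 6 * u 1 + 6 * u 2 + 12 * u 3 + 12 * u 4 + 0 * u 5 + 0 * u 6 + 0 * u 7) ≤ 13 * 12 :=
    con (d := toF [0, 0, 0, 0, 1, 0, 0, 0]) (b := toF [0, 6, 6, 12, 12, 0, 0, 0]) (by decide +kernel) (by decide +kernel)
      (hmin _)
  have c4 : 2 * ((0 : ℤ) * u 0 + 0 * u 1 + 0 * u 2 + 0 * u 3 + 0 * u 4 + 0 * u 5 + 4 * u 6 + 2 * u 7) ≤ 13 * 4 :=
    con (d := toF [0, 0, 0, 0, 0, 0, 1, 0]) (b := toF [0, 0, 0, 0, 0, 0, 4, 2]) (by decide +kernel) (by decide +kernel)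
      (hmin _)
  have c5 : 2 * ((0 : ℤ) * u 0 + 0 * u 1 + 0 * u 2 + 0 * u 3 + 0 * u 4 + 0 * u 5 + 2 * u 6 + 4 * u 7) ≤ 13 * 4 :=
    con (d := toF [0, 0, 0, 0, 0, 0, 0, 1]) (b := toF [0, 0, 0, 0, 0, 0, 2, 4]) (by decide +kernel) (by decide +kernel)
      (hmin _)
  have f0 : u 0 < 13 := hu13 0 (by decide)
  have f5 : u 5 < 13 := hu13 5 (by decide)
  rw [vecOf_list u] at e2
  have hJ := invJ_of hq' e1 e2
  rw [filter38, split38, split38] at hJ
  have h1 := allAlc_spec [2, 1, 2, 1] 13 _ (by decide) chk38 [u 1, u 2, u 3, u 4] rfl (by simp only [dotN]; omega)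
  have g1 : Nat.ble (dotN [1, 2, 2, 1] [u 1, u 2, u 3, u 4]) 13 = true := by
    rw [Nat.ble_eq]; simp only [dotN]; omega
  have g2 : Nat.ble (dotN [1, 1, 2, 2] [u 1, u 2, u 3, u 4]) 13 = true := by
    rw [Nat.ble_eq]; simp only [dotN]; omega
  rw [g1, g2, Bool.and_self, cond_true] at h1
  have h2 := allAlc_spec [2, 1] 13 _ (by decide) h1 [u 6, u 7] rfl (by simp only [dotN]; omega)
  have g3 : Nat.ble (dotN [1, 2] [u 6, u 7]) 13 = true := by
    rw [Nat.ble_eq]; simp only [dotN]; omega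
  have g4 : Nat.beq (sumH (hh 13) RD [u 1, u 2, u 3, u 4] + sumH (hh 13) RA [u 6, u 7])
      (sumH h3 RD [u 1, u 2, u 3, u 4] + sumH h3 RA [u 6, u 7]) = true := by
    rw [Nat.beq_eq]; exact hJ
  rw [g3, cond_true, g4, cond_true] at h2
  have h4 := allLt_spec 13 2 _ h2 [u 0, u 5] rfl (by
    intro x hx
    simp only [List.mem_cons, List.not_mem_nil, or_false] at hx
    rcases hx with rfl | rfl
    · exact f0
    · exact f5)
  refine ⟨crt 78 14 91 s38 [u 0, u 1, u 2, u 3, u 4, u 5, u 6, u 7], ?_, ?_⟩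
  · exact fin_of chkB38 rfl hq' e1 e2 e4 h4
  · rw [← e3, ← eq_crt (Y := s38) (U := [u 0, u 1, u 2, u 3, u 4, u 5, u 6, u 7]) rfl e1 e2]

theorem case80 {v : Fin 8 → ZMod (7 * 13)} (hq : Inv3 v) (hv : (fun i => p₁ (v i)) = vecOf 7 s80)
    (h13 : (fun i => p₂ (v i)) ≠ 0) :
    ∃ V : List ℕ, certOK V = true ∧ ms chevE8 8 (vecOf (7 * 13) V) = ms chevE8 8 v := by
  obtain ⟨u, hu13, ⟨v', e1, e2, e3, e4⟩, hmin⟩ := stageB s80 J80 RZ80 r80 (by decide +kernel) (by decide +kernel)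
    (by decide +kernel) (by decide +kernel) (by decide +kernel) (by decide +kernel) (by decide +kernel) hv h13
  have hq' : Inv3 v' := by
    unfold Inv3
    rw [e3]
    exact hq
  have c1 : 2 * ((24 : ℤ) * u 0 + 48 * u 1 + 48 * u 2 + 72 * u 3 + 48 * u 4 + 24 * u 5 + 0 * u 6 + 0 * u 7) ≤ 13 * 48 :=
    con (d := toF [0, 1, 0, 0, 0, 0, 0, 0]) (b := toF [24, 48, 48, 72, 48, 24, 0, 0]) (by decide +kernel)
      (by decide +kernel) (hmin _)
  have c2 : 2 * ((32 : ℤ) * u 0 + 24 * u 1 + 40 * u 2 + 48 * u 3 + 32 * u 4 + 16 * u 5 + 0 * u 6 + 0 * u 7) ≤ 13 * 32 :=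
    con (d := toF [1, 0, 0, 0, 0, 0, 0, 0]) (b := toF [32, 24, 40, 48, 32, 16, 0, 0]) (by decide +kernel)
      (by decide +kernel) (hmin _)
  have c3 : 2 * ((16 : ℤ) * u 0 + 24 * u 1 + 32 * u 2 + 48 * u 3 + 40 * u 4 + 32 * u 5 + 0 * u 6 + 0 * u 7) ≤ 13 * 32 :=
    con (d := toF [0, 0, 0, 0, 0, 1, 0, 0]) (b := toF [16, 24, 32, 48, 40, 32, 0, 0]) (by decide +kernel)
      (by decide +kernel) (hmin _)
  have f6 : u 6 < 13 := hu13 6 (by decide)
  have f7 : u 7 < 13 := hu13 7 (by decide)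
  rw [vecOf_list u] at e2
  have hJ := invJ_of hq' e1 e2
  rw [filter80, split80, split80] at hJ
  have h1 := allAlc_spec [1, 2, 2, 3, 2, 1] 13 _ (by decide) chk80 [u 0, u 1, u 2, u 3, u 4, u 5] rfl
    (by simp only [dotN]; omega)
  have g1 : Nat.ble (dotN [4, 3, 5, 6, 4, 2] [u 0, u 1, u 2, u 3, u 4, u 5]) 26 = true := by
    rw [Nat.ble_eq]; simp only [dotN]; omega
  have g2 : Nat.ble (dotN [2, 3, 4, 6, 5, 4] [u 0, u 1, u 2, u 3, u 4, u 5]) 26 = true := by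
    rw [Nat.ble_eq]; simp only [dotN]; omega
  have g4 : Nat.beq (sumH (hh 13) RE [u 0, u 1, u 2, u 3, u 4, u 5]) (sumH h3 RE [u 0, u 1, u 2, u 3, u 4, u 5]) =
      true := by
    rw [Nat.beq_eq]; exact hJ
  rw [g1, g2, Bool.and_self, cond_true, g4, cond_true] at h1
  have h4 := allLt_spec 13 2 _ h1 [u 6, u 7] rfl (by
    intro x hx
    simp only [List.mem_cons, List.not_mem_nil, or_false] at hx
    rcases hx with rfl | rfl
    · exact f6
    · exact f7)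
  refine ⟨crt 78 14 91 s80 [u 0, u 1, u 2, u 3, u 4, u 5, u 6, u 7], ?_, ?_⟩
  · exact fin_of chkB80 rfl hq' e1 e2 e4 h4
  · rw [← e3, ← eq_crt (Y := s80) (U := [u 0, u 1, u 2, u 3, u 4, u 5, u 6, u 7]) rfl e1 e2]

/-- **The classification.** -/
theorem class91 {v : Fin 8 → ZMod (7 * 13)} (hq : Inv3 v) (h7 : (fun i => p₁ (v i)) ≠ 0)
    (h13 : (fun i => p₂ (v i)) ≠ 0) :
    ∃ V : List ℕ, certOK V = true ∧ ms chevE8 8 (vecOf (7 * 13) V) = ms chevE8 8 v := by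
  let P : (Fin 8 → ZMod 7) → Prop := fun w => ∃ v' : Fin 8 → ZMod (7 * 13), (fun i => p₁ (v' i)) = w ∧
    ms chevE8 8 v' = ms chevE8 8 v ∧ w ≠ 0 ∧ (fun i => p₂ (v' i)) ≠ 0
  have hP0 : P (fun i => p₁ (v i)) := ⟨v, rfl, rfl, h7, h13⟩
  have hPs : ∀ w j, P w → P (srefl chevE8 8 j w) := by
    rintro w j ⟨v', hvw, hf, hw0, hv0⟩
    refine ⟨srefl chevE8 8 j v', ?_, ?_, ?_, ?_⟩
    · rw [← srefl_map, hvw]
    · rw [ms_srefl e8T, hf]
    · intro h; exact hw0 (srefl_eq_zero e8T h)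
    · intro h
      rw [← srefl_map] at h
      exact hv0 (srefl_eq_zero e8T h)
  obtain ⟨Y, hYl, hYθ, v', e1, e2, hY0, e4⟩ := alcove8 (N := 7) (by norm_num) P hPs hP0
  have hq' : Inv3 v' := by
    unfold Inv3
    rw [e2]
    exact hq
  have h2 := allAlc_spec th8 7 _ (by decide) check7 Y hYl hYθ
  have h4 : invB 7 3 R8 Y = true := by
    refine invB_of (by norm_num) tab8 len8 ?_
    have h5 : ms chevE8 8 (fun i => p₁ (v' i)) = (ms chevE8 8 (fun i => p₁ (v' i))).map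
        (fun a => ((3 : ℕ) : ZMod 7) * a) := inv_map p₁ hq'
    rw [e1] at h5
    exact h5
  rw [h4, cond_true] at h2
  simp only [Bool.or_eq_true, beq_iff_eq] at h2
  rcases h2 with (h2 | h2) | h2
  · subst h2
    obtain ⟨V, hV, hV'⟩ := case38 hq' e1 e4
    exact ⟨V, hV, by rw [hV', e2]⟩
  · subst h2
    obtain ⟨V, hV, hV'⟩ := case80 hq' e1 e4
    exact ⟨V, hV, by rw [hV', e2]⟩
  · refine absurd ?_ hY0
    subst h2
    funext i
    fin_cases i <;> rfl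

end Cfsg.Agent.H943.E91
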