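import Cfsg.Agent.H943.E8Tab
import Cfsg.Agent.H943.E8Alc

/-!
# Fast enumeration of the alcove vectors of `E8` (helper943, S5921)

`outer X N K s4` : the loops over all `s` with `2 s1 + 3 s2 + 4 s3 + 6 s4 + 5 s5 + 4 s6 + 3 s7 + 2 s8 ≤ N`; the last
argument of `K` is the generating function `∑ X ^ (a · s)`, `a` running over the positive roots (`gen`).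
-/

set_option autoImplicit false
set_option maxRecDepth 100000

namespace Cfsg.Agent.H943.En

open Cfsg.Agent.H944.Tab Cfsg.Agent.H943.E8Tab

local infixl:65 " ⊞ " => Nat.add
local infixl:70 " ⊠ " => Nat.mul

/-- forced evaluation -/
def frc (n : ℕ) (k : ℕ → Bool) : Bool := Nat.rec (k 0) (fun m _ => k (Nat.succ m)) n

/-- all `i ≤ n` -/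
def lp (n : ℕ) (f : ℕ → Bool) : Bool := Nat.rec (f 0) (fun i ih => and (f (Nat.succ i)) ih) n

theorem frc_eq (n : ℕ) (k : ℕ → Bool) : frc n k = k n := by
  cases n <;> rfl

theorem lp_spec {n : ℕ} {f : ℕ → Bool} (h : lp n f = true) : ∀ i ≤ n, f i = true := by
  induction n with
  | zero =>
    intro i hi
    rw [Nat.le_zero.1 hi]
    exact h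
  | succ n ih =>
    have h1 : (f (Nat.succ n) && lp n f) = true := h
    rw [Bool.and_eq_true] at h1
    intro i hi
    rcases Nat.lt_or_ge i (n + 1) with h2 | h2
    · exact ih h1.2 i (by omega)
    · rw [le_antisymm hi h2]
      exact h1.1

def q0 (p4 p5 p3 p6 p2 : ℕ) : ℕ :=
  (((((p2) ⊞ (p6)) ⊞ (p3)) ⊞ (p5 ⊠ (1 ⊞ (p6)))) ⊞ (p4 ⊠ ((((1 ⊞ (p2)) ⊞ (p3 ⊠ (1 ⊞ (p2)))) ⊞ (p5 ⊠ (((1 ⊞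
    (p2)) ⊞ (p6 ⊠ (1 ⊞ (p2)))) ⊞ (p3 ⊠ ((1 ⊞ (p2)) ⊞ (p6 ⊠ (1 ⊞ (p2)))))))) ⊞ (p4 ⊠ (p5 ⊠ ((p3 ⊠ ((p2) ⊞ (p6 ⊠
    (p2)))) ⊞ (p5 ⊠ (p3 ⊠ (p6 ⊠ (p2))))))))))

def q1 (p4 p5 p3 p6 p2 : ℕ) : ℕ :=
  ((1 ⊞ (p3)) ⊞ (p4 ⊠ (((p3 ⊠ (1 ⊞ (p2))) ⊞ (p5 ⊠ (p3 ⊠ ((1 ⊞ (p2)) ⊞ (p6 ⊠ (1 ⊞ (p2))))))) ⊞ (p4 ⊠ ((p5 ⊠
    ((p3 ⊠ (((p2) ⊞ (p6 ⊠ (p2))) ⊞ (p3 ⊠ ((p2) ⊞ (p6 ⊠ (p2)))))) ⊞ (p5 ⊠ (p3 ⊠ ((p6 ⊠ (p2)) ⊞ (p3 ⊠ (p6 ⊠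
    (p2)))))))) ⊞ (p4 ⊠ (p5 ⊠ (p5 ⊠ (p3 ⊠ (p3 ⊠ (p6 ⊠ (p2 ⊠ (1 ⊞ (p2))))))))))))))

def qa (p4 p5 p3 p6 p2 : ℕ) : ℕ :=
  (((1 ⊞ (p6)) ⊞ (p5 ⊠ (p6))) ⊞ (p4 ⊠ ((p5 ⊠ ((p6 ⊠ (1 ⊞ (p2))) ⊞ (p3 ⊠ (p6 ⊠ (1 ⊞ (p2)))))) ⊞ (p4 ⊠ (p5 ⊠
    ((p3 ⊠ (p6 ⊠ (p2))) ⊞ (p5 ⊠ (p3 ⊠ (p6 ⊠ ((p2) ⊞ (p6 ⊠ (p2))))))))))))

def qb (p4 p5 p3 p6 p2 : ℕ) : ℕ :=
  (p4 ⊠ ((p5 ⊠ (p3 ⊠ (p6 ⊠ (1 ⊞ (p2))))) ⊞ (p4 ⊠ ((p5 ⊠ ((p3 ⊠ ((p6 ⊠ (p2)) ⊞ (p3 ⊠ (p6 ⊠ (p2))))) ⊞ (p5 ⊠ (p3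
    ⊠ ((p6 ⊠ ((p2) ⊞ (p6 ⊠ (p2)))) ⊞ (p3 ⊠ (p6 ⊠ ((p2) ⊞ (p6 ⊠ (p2)))))))))) ⊞ (p4 ⊠ ((p5 ⊠ (p5 ⊠ ((p3 ⊠ (p3 ⊠
    (p6 ⊠ ((p2 ⊠ (1 ⊞ (p2))) ⊞ (p6 ⊠ (p2 ⊠ (1 ⊞ (p2)))))))) ⊞ (p5 ⊠ (p3 ⊠ (p3 ⊠ (p6 ⊠ (p6 ⊠ (p2 ⊠ (1 ⊞
    (p2))))))))))) ⊞ (p4 ⊠ (p5 ⊠ (p5 ⊠ (p5 ⊠ (p3 ⊠ (p3 ⊠ ((p6 ⊠ (p6 ⊠ (p2 ⊠ (p2)))) ⊞ (p3 ⊠ (p6 ⊠ (p6 ⊠ (p2 ⊠
    (p2))))))))))))))))))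

def qd (p4 p5 p3 p6 p2 : ℕ) : ℕ :=
  (p4 ⊠ (p4 ⊠ (p4 ⊠ (p4 ⊠ (p5 ⊠ (p5 ⊠ (p5 ⊠ (p3 ⊠ (p3 ⊠ (p3 ⊠ (p6 ⊠ (p6 ⊠ (p2 ⊠ (p2))))))))))))))

def qe (p4 p5 p3 p6 p2 : ℕ) : ℕ :=
  (p4 ⊠ (p4 ⊠ (p5 ⊠ (p5 ⊠ (p3 ⊠ (p6 ⊠ (p6 ⊠ (p2))))))))

def qf (p4 p5 p3 p6 p2 : ℕ) : ℕ :=
  (p4 ⊠ (p4 ⊠ ((p5 ⊠ (p5 ⊠ (p3 ⊠ ((p6 ⊠ (p6 ⊠ (p2))) ⊞ (p3 ⊠ (p6 ⊠ (p6 ⊠ (p2)))))))) ⊞ (p4 ⊠ ((p5 ⊠ (p5 ⊠ ((p3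
    ⊠ (p3 ⊠ (p6 ⊠ (p6 ⊠ (p2 ⊠ (1 ⊞ (p2))))))) ⊞ (p5 ⊠ (p3 ⊠ (p3 ⊠ (p6 ⊠ (p6 ⊠ ((p2 ⊠ (1 ⊞ (p2))) ⊞ (p6 ⊠ (p2 ⊠
    (1 ⊞ (p2))))))))))))) ⊞ (p4 ⊠ ((p5 ⊠ (p5 ⊠ (p5 ⊠ ((p3 ⊠ (p3 ⊠ ((p6 ⊠ (p6 ⊠ ((p2 ⊠ (p2)) ⊞ (p6 ⊠ (p2 ⊠
    (p2)))))) ⊞ (p3 ⊠ (p6 ⊠ (p6 ⊠ ((p2 ⊠ (p2)) ⊞ (p6 ⊠ (p2 ⊠ (p2)))))))))) ⊞ (p5 ⊠ (p3 ⊠ (p3 ⊠ ((p6 ⊠ (p6 ⊠
    (p6 ⊠ (p2 ⊠ (p2))))) ⊞ (p3 ⊠ (p6 ⊠ (p6 ⊠ (p6 ⊠ (p2 ⊠ (p2)))))))))))))) ⊞ (p4 ⊠ (p5 ⊠ (p5 ⊠ (p5 ⊠ (p5 ⊠ (p3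
    ⊠ (p3 ⊠ (p3 ⊠ (p6 ⊠ (p6 ⊠ (p6 ⊠ (p2 ⊠ (p2 ⊠ (1 ⊞ (p2))))))))))))))))))))))

def qg (p4 p5 p3 p6 p2 : ℕ) : ℕ :=
  (p4 ⊠ (p4 ⊠ (p4 ⊠ (p4 ⊠ ((p5 ⊠ (p5 ⊠ (p5 ⊠ ((p3 ⊠ (p3 ⊠ (p3 ⊠ (p6 ⊠ (p6 ⊠ ((p2 ⊠ (p2)) ⊞ (p6 ⊠ (p2 ⊠
    (p2))))))))) ⊞ (p5 ⊠ (p3 ⊠ (p3 ⊠ (p3 ⊠ (p6 ⊠ (p6 ⊠ (p6 ⊠ (p2 ⊠ (p2))))))))))))) ⊞ (p4 ⊠ ((p5 ⊠ (p5 ⊠ (p5 ⊠
    (p5 ⊠ (p3 ⊠ (p3 ⊠ (p3 ⊠ ((p6 ⊠ (p6 ⊠ (p6 ⊠ (p2 ⊠ (p2 ⊠ (1 ⊞ (p2))))))) ⊞ (p3 ⊠ (p6 ⊠ (p6 ⊠ (p6 ⊠ (p2 ⊠ (p2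
    ⊠ (1 ⊞ (p2)))))))))))))))) ⊞ (p4 ⊠ (p5 ⊠ (p5 ⊠ (p5 ⊠ (p5 ⊠ ((p3 ⊠ (p3 ⊠ (p3 ⊠ (p3 ⊠ (p6 ⊠ (p6 ⊠ (p6 ⊠ (p2
    ⊠ (p2 ⊠ (p2)))))))))) ⊞ (p5 ⊠ (p3 ⊠ (p3 ⊠ (p3 ⊠ (p3 ⊠ (p6 ⊠ (p6 ⊠ (p6 ⊠ ((p2 ⊠ (p2 ⊠ (p2))) ⊞ (p6 ⊠ (p2 ⊠
    (p2 ⊠ (p2))))))))))))))))))))))))))

def qh (p4 p5 p3 p6 p2 : ℕ) : ℕ :=
  (p4 ⊠ (p4 ⊠ (p4 ⊠ (p4 ⊠ (p4 ⊠ (p4 ⊠ (p5 ⊠ (p5 ⊠ (p5 ⊠ (p5 ⊠ (p5 ⊠ (p3 ⊠ (p3 ⊠ (p3 ⊠ (p3 ⊠ (p6 ⊠ (p6 ⊠ (p6 ⊠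
    (p6 ⊠ (p2 ⊠ (p2 ⊠ (p2))))))))))))))))))))))

/-- the loops over `s7, s1, s8` -/
def inner (X : ℕ) (K : ℕ → ℕ → ℕ → ℕ → Bool) (B a0 a1 aa ab ad ae af ag ah : ℕ) : Bool :=
  lp (Nat.div B 3) fun s7 => frc (Nat.pow X s7) fun p7 => frc (Nat.sub B (Nat.mul 3 s7)) fun B7 =>
  lp (Nat.div B7 2) fun s1 => frc (Nat.pow X s1) fun p1 =>
  frc (p7 ⊠ (aa ⊞ (p1 ⊠ (ab ⊞ (p1 ⊠ ad))))) fun A =>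
  frc (p7 ⊠ (p7 ⊠ (p7 ⊠ (p1 ⊠ (p1 ⊠ ah))))) fun K2 =>
  frc (a0 ⊞ ((p1 ⊠ a1) ⊞ A)) fun K0 =>
  frc (1 ⊞ (A ⊞ ((p7 ⊠ (p7 ⊠ (ae ⊞ (p1 ⊠ (af ⊞ (p1 ⊠ ag)))))) ⊞ K2))) fun K1 =>
  lp (Nat.div (Nat.sub B7 (Nat.mul 2 s1)) 2) fun s8 => frc (Nat.pow X s8) fun p8 =>
  frc (K0 ⊞ (p8 ⊠ (K1 ⊞ (p8 ⊠ K2)))) fun E => K s7 s1 s8 E

/-- the loops over `s4, s5, s3, s6, s2` -/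
def outer (X : ℕ) (N : ℕ) (K : ℕ → ℕ → ℕ → ℕ → ℕ → ℕ → ℕ → ℕ → ℕ → Bool) (s4 : ℕ) : Bool :=
  frc (Nat.pow X s4) fun p4 => frc (Nat.sub N (Nat.mul 6 s4)) fun B4 =>
  lp (Nat.div B4 5) fun s5 => frc (Nat.pow X s5) fun p5 => frc (Nat.sub B4 (Nat.mul 5 s5)) fun B5 =>
  lp (Nat.div B5 4) fun s3 => frc (Nat.pow X s3) fun p3 => frc (Nat.sub B5 (Nat.mul 4 s3)) fun B3 =>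
  lp (Nat.div B3 4) fun s6 => frc (Nat.pow X s6) fun p6 => frc (Nat.sub B3 (Nat.mul 4 s6)) fun B6 =>
  lp (Nat.div B6 3) fun s2 => frc (Nat.pow X s2) fun p2 => frc (Nat.sub B6 (Nat.mul 3 s2)) fun B2 =>
  frc (q0 p4 p5 p3 p6 p2) fun a0 => frc (q1 p4 p5 p3 p6 p2) fun a1 => frc (qa p4 p5 p3 p6 p2) fun aa =>
  frc (qb p4 p5 p3 p6 p2) fun ab => frc (qd p4 p5 p3 p6 p2) fun ad => frc (qe p4 p5 p3 p6 p2) fun ae =>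
  frc (qf p4 p5 p3 p6 p2) fun af => frc (qg p4 p5 p3 p6 p2) fun ag => frc (qh p4 p5 p3 p6 p2) fun ah =>
  inner X (K s4 s5 s3 s6 s2) B2 a0 a1 aa ab ad ae af ag ah


/-- the product of the powers -/
def mon : List ℕ → List ℕ → ℕ
  | a :: as, p :: ps => p ^ a * mon as ps
  | _, _ => 1

/-- the generating function of the root values -/
def gen (X : ℕ) (s1 s2 s3 s4 s5 s6 s7 s8 : ℕ) : ℕ :=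
  (R8.map fun a => X ^ dotN a [s1, s2, s3, s4, s5, s6, s7, s8]).sum

theorem pow_dotN (X : ℕ) (a : List ℕ) (s : List ℕ) : X ^ dotN a s = mon a (s.map fun i => X ^ i) := by
  induction a generalizing s with
  | nil => cases s <;> simp [dotN, mon]
  | cons x a ih =>
    cases s with
    | nil => simp [dotN, mon]
    | cons y s =>
      rw [dotN, List.map_cons, mon, pow_add, ih, Nat.mul_comm x y, pow_mul]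

/-- the value computed in the innermost loop -/
def val (p1 p2 p3 p4 p5 p6 p7 p8 : ℕ) : ℕ :=
  (q0 p4 p5 p3 p6 p2 + (p1 * q1 p4 p5 p3 p6 p2 + p7 * (qa p4 p5 p3 p6 p2 + p1 * (qb p4 p5 p3 p6 p2 + p1 *
    qd p4 p5 p3 p6 p2)))) + p8 * ((1 + (p7 * (qa p4 p5 p3 p6 p2 + p1 * (qb p4 p5 p3 p6 p2 + p1 * qd p4 p5 p3 p6 p2)) +
    (p7 * (p7 * (qe p4 p5 p3 p6 p2 + p1 * (qf p4 p5 p3 p6 p2 + p1 * qg p4 p5 p3 p6 p2))) +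
    p7 * (p7 * (p7 * (p1 * (p1 * qh p4 p5 p3 p6 p2))))))) + p8 * (p7 * (p7 * (p7 * (p1 * (p1 * qh p4 p5 p3 p6 p2))))))

theorem gen_eq (X s1 s2 s3 s4 s5 s6 s7 s8 : ℕ) : gen X s1 s2 s3 s4 s5 s6 s7 s8 =
    val (X ^ s1) (X ^ s2) (X ^ s3) (X ^ s4) (X ^ s5) (X ^ s6) (X ^ s7) (X ^ s8) := by
  unfold gen
  simp only [pow_dotN, List.map_cons, List.map_nil]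
  generalize X ^ s1 = p1
  generalize X ^ s2 = p2
  generalize X ^ s3 = p3
  generalize X ^ s4 = p4
  generalize X ^ s5 = p5
  generalize X ^ s6 = p6
  generalize X ^ s7 = p7
  generalize X ^ s8 = p8
  unfold val q0 q1 qa qb qd qe qf qg qh
  simp only [Nat.add_eq, Nat.mul_eq]
  simp only [R8, List.map_cons, List.map_nil, List.sum_cons, List.sum_nil, mon]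
  ring

/-- **the loops are complete** -/
theorem outer_spec {X N : ℕ} {K : ℕ → ℕ → ℕ → ℕ → ℕ → ℕ → ℕ → ℕ → ℕ → Bool} (h : ∀ s4 ≤ N / 6, outer X N K s4 = true)
    (s1 s2 s3 s4 s5 s6 s7 s8 : ℕ) (hs : 2 * s1 + 3 * s2 + 4 * s3 + 6 * s4 + 5 * s5 + 4 * s6 + 3 * s7 + 2 * s8 ≤ N) :
    K s4 s5 s3 s6 s2 s7 s1 s8 (gen X s1 s2 s3 s4 s5 s6 s7 s8) = true := by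
  have h4 := h s4 (by omega)
  unfold outer at h4
  simp only [frc_eq] at h4
  have h5 := lp_spec h4 s5 (by show s5 ≤ (N - 6 * s4) / 5; omega)
  have h3 := lp_spec h5 s3 (by show s3 ≤ (N - 6 * s4 - 5 * s5) / 4; omega)
  have h6 := lp_spec h3 s6 (by show s6 ≤ (N - 6 * s4 - 5 * s5 - 4 * s3) / 4; omega)
  have h2 := lp_spec h6 s2 (by show s2 ≤ (N - 6 * s4 - 5 * s5 - 4 * s3 - 4 * s6) / 3; omega)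
  unfold inner at h2
  simp only [frc_eq] at h2
  have h7 := lp_spec h2 s7 (by show s7 ≤ (N - 6 * s4 - 5 * s5 - 4 * s3 - 4 * s6 - 3 * s2) / 3; omega)
  have h1 := lp_spec h7 s1 (by show s1 ≤ (N - 6 * s4 - 5 * s5 - 4 * s3 - 4 * s6 - 3 * s2 - 3 * s7) / 2; omega)
  have h8 := lp_spec h1 s8 (by
    show s8 ≤ (N - 6 * s4 - 5 * s5 - 4 * s3 - 4 * s6 - 3 * s2 - 3 * s7 - 2 * s1) / 2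
    omega)
  rw [gen_eq]
  exact h8

end Cfsg.Agent.H943.En
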