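import Cfsg.Agent.H943.EnDg

/-!
# The 3-stable alcove vectors of `E8` modulo 41 (helper943, S5921)
-/

set_option autoImplicit false
set_option maxRecDepth 100000

namespace Cfsg.Agent.H943.En41

open Cfsg.Lie Cfsg.Agent.ChevalleyStructure Cfsg.Agent.H944.RootVals
open Cfsg.Agent.H944.Tab Cfsg.Agent.H943.E8Tab Cfsg.Agent.H943.En

local infixl:65 " ⊞ " => Nat.add
local infixl:70 " ⊠ " => Nat.mul

def fast41 (E : ℕ) : Bool := Nat.beq (Nat.mod (Nat.div E 256) 256 ⊞ Nat.mod (Nat.div E 2135987035920910082395021706169552114602704522356652769947041607822219725780640550022962086936576) 256)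
  (Nat.mod (Nat.div E 16777216) 256 ⊞ Nat.mod (Nat.div E 32592575621351777380295131014550050576823494298654980010178247189670100796213387298934358016) 256)

def NN (E r : ℕ) : ℕ := dg E r ⊞ dg E (Nat.sub 41 r)

def st41 (E : ℕ) : Bool :=
  and (Nat.beq (NN E 1) (NN E 3)) <| and (Nat.beq (NN E 2) (NN E 6)) <| and (Nat.beq (NN E 7) (NN E 20)) <|
  and (Nat.beq (NN E 4) (NN E 12)) <| and (Nat.beq (NN E 8) (NN E 17)) <|
  and (Nat.beq (NN E 3) (NN E 9)) <| and (Nat.beq (NN E 9) (NN E 14)) <| and (Nat.beq (NN E 6) (NN E 18)) <|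
  and (Nat.beq (NN E 18) (NN E 13)) <| and (Nat.beq (NN E 12) (NN E 5)) <| and (Nat.beq (NN E 5) (NN E 15)) <|
  and (Nat.beq (NN E 20) (NN E 19)) <| and (Nat.beq (NN E 19) (NN E 16)) <|
  and (Nat.beq (NN E 17) (NN E 10)) (Nat.beq (NN E 10) (NN E 11))

/-- the result -/
def list41 : List (List ℕ) := [[0,0,0,0,0,0,0,0],[3,0,0,3,1,0,1,0],[5,0,0,2,0,3,1,0],[0,1,6,0,1,0,2,0],
  [3,1,1,1,1,1,1,1],[3,2,1,1,1,1,1,1],[4,1,1,1,1,2,1,1],[6,0,0,0,0,2,2,1],[2,1,1,1,1,1,3,1],[5,0,0,1,0,2,0,2],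
  [1,1,1,1,2,2,1,2],[2,1,2,1,1,1,2,2],[7,0,0,0,0,4,1,3],[2,1,1,1,1,1,2,4],[7,0,0,0,0,1,2,6],[3,0,0,0,0,1,1,7],
  [1,0,0,0,0,2,4,7],[1,1,0,1,0,3,0,9]]

def good41 (s1 s2 s3 s4 s5 s6 s7 s8 : ℕ) : Bool := list41.contains [s1,s2,s3,s4,s5,s6,s7,s8]

def K41 (s4 s5 s3 s6 s2 s7 s1 s8 E : ℕ) : Bool :=
  bif fast41 E then bif st41 E then good41 s1 s2 s3 s4 s5 s6 s7 s8 else true else true

set_option maxHeartbeats 0
theorem t6 : outer 256 41 K41 6 = true := by decide +kernel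
theorem t5 : outer 256 41 K41 5 = true := by decide +kernel
theorem t4 : outer 256 41 K41 4 = true := by decide +kernel
theorem t3 : outer 256 41 K41 3 = true := by decide +kernel
theorem t2 : outer 256 41 K41 2 = true := by decide +kernel
theorem t1 : outer 256 41 K41 1 = true := by decide +kernel
theorem t0 : outer 256 41 K41 0 = true := by decide +kernel

theorem all41 : ∀ s4 ≤ 41 / 6, outer 256 41 K41 s4 = true := by
  intro s4 h4
  have : s4 ≤ 6 := h4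
  interval_cases s4
  exacts [t0, t1, t2, t3, t4, t5, t6]

end Cfsg.Agent.H943.En41
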