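import Mathlib
import Cfsg.Agent.S1093
import Cfsg.Agent.H943.Fusion
import Cfsg.Agent.H943.PSLHom
import Cfsg.Agent.H943.E8Tab

/-!
# No subgroup `L2(41)` in `E8(3)` (helper943)

An element of order 41 would be conjugate in `E8(k)` to its square (in `L2(41)`) and to its cube (Frobenius), so to its
6th power; 6 has order 40 modulo 41 and `φ(40) = 16 > 8`.
-/

set_option autoImplicit false

namespace Cfsg.Agent.H943.L41

open Matrix Cfsg.Agent.H943.SL2Rel Cfsg.Agent.H943.PSLHom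
open Cfsg.Lie Cfsg.Agent.ChevalleyStructure Cfsg.Agent.ChevalleyStructure.Elts
open Cfsg.Agent.GpExc.Field (emb emb_injective)
open Cfsg.Agent.H378.TorFin

theorem u_not_mem_center {F : Type*} [Field F] : (u (1 : F)) ∉ Subgroup.center (SpecialLinearGroup (Fin 2) F) := by
  rw [Matrix.SpecialLinearGroup.mem_center_iff]
  rintro ⟨r, -, hr⟩
  have h0 := congrFun (congrFun hr 0) 1
  simp [u, Matrix.scalar_apply] at h0

theorem u_pow {F : Type*} [Field F] (t : F) (n : ℕ) : (u t) ^ n = u (n * t) := by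
  induction n with
  | zero => rw [pow_zero, Nat.cast_zero, zero_mul, u_zero]
  | succ n ih => rw [pow_succ, ih, ← u_add]; congr 1; push_cast; ring

theorem order6 : orderOf (6 : ZMod 41) = 40 := by
  refine orderOf_eq_of_pow_and_pow_div_prime (by norm_num) (by decide +kernel) ?_
  intro p hp hd
  have h3 : p ∣ 2 ^ 3 * 5 := by
    have : (40 : ℕ) = 2 ^ 3 * 5 := by norm_num
    rwa [← this]
  rcases (Nat.Prime.dvd_mul hp).1 h3 with h4 | h4
  · have h5 := (Nat.prime_dvd_prime_iff_eq hp Nat.prime_two).1 (hp.dvd_of_dvd_pow h4)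
    subst h5
    decide +kernel
  · have h5 := (Nat.prime_dvd_prime_iff_eq hp Nat.prime_five).1 h4
    subst h5
    decide +kernel

theorem ne40 : ((40 : ℕ) : ZMod 41) ≠ 0 := by decide +kernel

theorem cyc40 : ((41 : ℕ) : ℤ) ∣ (Polynomial.cyclotomic 40 ℤ).eval ((6 : ℕ) : ℤ) := by
  have h1 : IsPrimitiveRoot (6 : ZMod 41) 40 := order6 ▸ IsPrimitiveRoot.orderOf _
  have : Fact (Nat.Prime 41) := ⟨by norm_num⟩
  have : NeZero ((40 : ℕ) : ZMod 41) := ⟨ne40⟩
  have h2 := (Polynomial.isRoot_cyclotomic_iff (n := 40) (R := ZMod 41)).2 h1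
  rw [Polynomial.IsRoot.def, ← Polynomial.map_cyclotomic_int] at h2
  rw [← ZMod.intCast_zmod_eq_zero_iff_dvd, ← h2]
  have h3 : (6 : ZMod 41) = (Int.castRingHom (ZMod 41)) ((6 : ℕ) : ℤ) := by simp
  rw [h3, Polynomial.eval_map, Polynomial.eval₂_at_apply]
  simp

/-- **no `L2(41)` in `E8(3)`** -/
theorem no_L41 {F : Type*} [Field F] [Fintype F] (hF : Fintype.card F = 41)
    (H : Subgroup ↥(chevE8.group (ZMod 3))) : IsEmpty (↥H ≃* ProjectiveSpecialLinearGroup (Fin 2) F) := by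
  classical
  refine ⟨fun e => ?_⟩
  have : Fact (Nat.Prime 3) := ⟨Nat.prime_three⟩
  have h41 : (41 : F) = 0 := by
    have h1 := FiniteField.cast_card_eq_zero F
    rw [hF] at h1
    exact_mod_cast h1
  obtain ⟨φ, hφ⟩ := exists_hom H e
  set x := φ (u 1) with hx
  have hx1 : x ≠ 1 := fun h0 => u_not_mem_center ((hφ _).1 h0)
  have hx41 : x ^ 41 = 1 := by
    rw [hx, ← map_pow, u_pow, show ((41 : ℕ) : F) * 1 = 0 by rw [mul_one]; exact_mod_cast h41, u_zero, map_one]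
  have h17 : (17 : F) ≠ 0 := by
    intro h0
    have h1 : (1 : F) = 41 * 5 - 17 * 12 := by norm_num
    rw [h41, h0, zero_mul, zero_mul, sub_zero] at h1
    exact one_ne_zero h1
  have hc2 : φ (h (Units.mk0 17 h17)) * x * (φ (h (Units.mk0 17 h17)))⁻¹ = x ^ 2 := by
    rw [hx, ← map_mul, h_u, map_mul, mul_inv_cancel_right, ← map_pow, u_pow]
    congr 2
    rw [Units.val_mk0]
    push_cast
    linear_combination 7 * h41
  obtain ⟨k, _, _, f, r, _, _, n, hk, hka, hn0, hn⟩ := exists_closure (ZMod 3)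
  have hn3 : r ^ n = 3 := by rw [← hn, Nat.card_zmod]
  have hr : (41 : ℕ) ≠ r := by
    rintro rfl
    have h1 : 41 ∣ 41 ^ n := dvd_pow_self _ hn0.ne'
    rw [hn3] at h1
    omega
  set X := emb E8Tab.e8T.inList f x with hX
  have hX41 : X ^ 41 = 1 := by rw [hX, ← map_pow, hx41, map_one]
  have hX1 : X ≠ 1 := fun h => hx1 (emb_injective E8Tab.e8T.inList f (h.trans (map_one _).symm))
  obtain ⟨c3, hc3⟩ := Fusion.frob_conj E8Tab.e8T r hka (n := n) (phi_emb' E8Tab.e8T f r hn x) (ℓ := 41) (by norm_num) hr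
    hX41
  rw [hn3] at hc3
  have hc6 : (emb E8Tab.e8T.inList f (φ (h (Units.mk0 17 h17))) * c3) * X *
      (emb E8Tab.e8T.inList f (φ (h (Units.mk0 17 h17))) * c3)⁻¹ = X ^ 6 := by
    have e1 : emb E8Tab.e8T.inList f (φ (h (Units.mk0 17 h17))) * X *
        (emb E8Tab.e8T.inList f (φ (h (Units.mk0 17 h17))))⁻¹ = X ^ 2 := by
      rw [hX, ← map_inv, ← map_mul, ← map_mul, hc2, map_pow]
    generalize emb E8Tab.e8T.inList f (φ (h (Units.mk0 17 h17))) = c2 at e1
    calc (c2 * c3) * X * (c2 * c3)⁻¹ = c2 * (c3 * X * c3⁻¹) * c2⁻¹ := by group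
      _ = c2 * X ^ 3 * c2⁻¹ := by rw [hc3]
      _ = (c2 * X * c2⁻¹) ^ 3 := by rw [conj_pow]
      _ = X ^ 6 := by rw [e1, ← pow_mul]
  let cs : CoxeterSystem CoxeterMatrix.E₈ CoxeterMatrix.E₈.Group := CoxeterMatrix.E₈.toCoxeterSystem
  have hcard : Nat.card CoxeterMatrix.E₈.Group = 696729600 :=
    Cfsg.Agent.S1093.result (⟨8, CoxeterMatrix.E₈⟩, 696729600) (by simp)
  have : Finite CoxeterMatrix.E₈.Group := Nat.finite_of_card_ne_zero (by rw [hcard]; norm_num)
  have h1 := Fusion.totient_le E8Tab.e8T cs hk r hka (ℓ := 41) (by norm_num) hr hX41 hX1 (by rw [hcard]; norm_num)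
    (m := 40) (by norm_num) (by norm_num) (a := 6) cyc40 ⟨_, hc6⟩
  revert h1
  decide

end Cfsg.Agent.H943.L41
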