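import Mathlib
import Cfsg.Agent.H943.E91c
import Cfsg.Agent.H943.L243

/-!
# No subgroup `L2(729)` in `E8(3)` (helper943)
-/

set_option autoImplicit false

namespace Cfsg.Agent.H943.L729

open Matrix Cfsg.Agent.H943.SL2Rel Cfsg.Agent.H943.PSLHom Cfsg.Agent.H943.RepAdd
open Cfsg.Lie
open Cfsg.Agent.H943.TorDim Cfsg.Agent.H943.E8Tab Cfsg.Agent.H943.E91 Cfsg.Agent.H943.Cert
open Cfsg.Agent.H944.RootVals Cfsg.Agent.H944.Kac Cfsg.Agent.H944.Tab
open Cfsg.Agent.H943.L243 (card_idx)

theorem sum_count (n : ℕ) (f : ℕ → ℤ) (S : Multiset ℕ) (hS : ∀ a ∈ S, a < n) :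
    ∑ κ ∈ Finset.range n, f κ * (S.count κ : ℤ) = (S.map f).sum := by
  induction S using Multiset.induction_on with
  | empty => simp
  | cons a S ih =>
    rw [Multiset.map_cons, Multiset.sum_cons, ← ih (fun b hb => hS b (Multiset.mem_cons_of_mem hb))]
    have ha : a < n := hS a (Multiset.mem_cons_self a S)
    have h1 : ∀ κ, f κ * ((Multiset.count κ (a ::ₘ S) : ℕ) : ℤ) = f κ * (S.count κ : ℤ) + if κ = a then f κ else 0 := by
      intro κ
      rw [Multiset.count_cons]
      split_ifs <;> push_cast <;> ring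
    rw [Finset.sum_congr rfl fun κ _ => h1 κ, Finset.sum_add_distrib, Finset.sum_ite_eq',
      if_pos (Finset.mem_range.2 ha), add_comm]

theorem count_pow {k : Type*} [Field k] [DecidableEq k] {z : k} {n : ℕ} (hz : IsPrimitiveRoot z n) (S : Multiset ℕ)
    (hS : ∀ a ∈ S, a < n) {κ : ℕ} (hκ : κ < n) : (S.map fun a => z ^ a).count (z ^ κ) = S.count κ := by
  rw [Multiset.count_map, Multiset.count_eq_card_filter_eq]
  congr 1
  refine Multiset.filter_congr fun a ha => ?_
  constructor
  · intro h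
    exact hz.pow_inj hκ (hS a ha) h
  · rintro rfl
    rfl

theorem ms_mul {R : Type*} [CommRing R] (a : R) (v : Fin 8 → R) :
    ms chevE8 8 (fun i => a * v i) = (ms chevE8 8 v).map fun b => a * b := by
  rw [ms_eq, ms_eq, Multiset.map_map]
  refine Multiset.map_congr rfl fun s _ => ?_
  simp only [Function.comp_apply]
  unfold rv
  rw [Finset.mul_sum]
  exact Finset.sum_congr rfl fun i _ => by ring

/-- reduction modulo 91 -/
abbrev c91 : ZMod 364 →+* ZMod (7 * 13) := ZMod.castHom (by norm_num) (ZMod (7 * 13))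

/-- reduction modulo 2 -/
abbrev c2 : ZMod 364 →+* ZMod 2 := ZMod.castHom (by norm_num) (ZMod 2)

theorem card_ms {R : Type*} [CommRing R] (v : Fin 8 → R) : (ms chevE8 8 v).card = 240 := by
  rw [ms_eq, Multiset.card_map]
  show (Finset.univ : Finset (Fin chevE8.nroots)).card = 240
  rw [Finset.card_univ, Fintype.card_fin]
  rfl

theorem sum_fc (c : ℕ) (S : Multiset ℕ) : (S.map (fc c)).sum = (((S.map fun κ => tb (BY c) (κ % 91)).sum : ℕ) : ℤ) +
    (((S.map fun κ => tb (BG c) (κ % 4)).sum : ℕ) : ℤ) - CC c * S.card := by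
  induction S using Multiset.induction_on with
  | empty => simp
  | cons a S ih =>
    simp only [Multiset.map_cons, Multiset.sum_cons, Multiset.card_cons, ih]
    unfold fc fp
    push_cast
    ring

theorem two_val_91 (b : ZMod 364) : (2 * b.val) % 91 = (2 * c91 b).val := by
  have h2 : c91 b = ((b.val : ℕ) : ZMod (7 * 13)) := by
    conv_lhs => rw [← ZMod.natCast_zmod_val b]
    rw [map_natCast]
  have h1 : (2 * c91 b) = (((2 * b.val : ℕ)) : ZMod (7 * 13)) := by
    rw [h2, Nat.cast_mul, Nat.cast_ofNat]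
  rw [h1, ZMod.val_natCast]

theorem two_val_4 (b : ZMod 364) : (2 * b.val) % 4 = if c2 b = 0 then 0 else 2 := by
  have h1 : c2 b = ((b.val : ℕ) : ZMod 2) := by
    conv_lhs => rw [← ZMod.natCast_zmod_val b]
    rw [map_natCast]
  rw [h1]
  have h2 : ((b.val : ℕ) : ZMod 2) = 0 ↔ b.val % 2 = 0 := by
    rw [ZMod.natCast_eq_zero_iff, Nat.dvd_iff_mod_eq_zero]
  by_cases h : b.val % 2 = 0
  · rw [if_pos (h2.2 h)]
    omega
  · rw [if_neg (fun h' => h (h2.1 h'))]
    omega

theorem sum_ite {R : Type*} (S : Multiset R) (P : R → Prop) [DecidablePred P] (a b : ℕ) :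
    (S.map fun x => if P x then a else b).sum = a * (S.filter P).card + b * (S.card - (S.filter P).card) := by
  induction S using Multiset.induction_on with
  | empty => simp
  | cons x S ih =>
    have hle := Multiset.card_le_card (Multiset.filter_le P S)
    rw [Multiset.map_cons, Multiset.sum_cons, ih]
    by_cases h : P x
    · rw [if_pos h, Multiset.filter_cons_of_pos _ h, Multiset.card_cons, Multiset.card_cons]
      have : S.card + 1 - ((S.filter P).card + 1) = S.card - (S.filter P).card := by omega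
      rw [this]
      ring
    · rw [if_neg h, Multiset.filter_cons_of_neg _ h, Multiset.card_cons]
      have : S.card + 1 - (S.filter P).card = (S.card - (S.filter P).card) + 1 := by omega
      rw [this]
      ring

theorem hY_sum (c : ℕ) (V : List ℕ) :
    ((ms chevE8 8 (vecOf (7 * 13) V)).map fun a => tb (BY c) a.val).sum = sumH (hY c) R8 V := by
  rw [sum_vecOf, sumH_eq]
  refine congrArg List.sum (List.map_congr_left fun r _ => ?_)
  unfold hY
  have h1 : (((dotN r V : ℕ)) : ZMod (7 * 13)).val = dotN r V % 91 := ZMod.val_natCast _ _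
  have h2 : (-((dotN r V : ℕ) : ZMod (7 * 13))).val = (91 - dotN r V % 91) % 91 := by
    have h3 : (-((dotN r V : ℕ) : ZMod (7 * 13))) = (((91 - dotN r V % 91) : ℕ) : ZMod (7 * 13)) := by
      have hlt : dotN r V % 91 ≤ 91 := (Nat.mod_lt _ (by norm_num)).le
      rw [Nat.cast_sub hlt]
      have h4 : ((91 : ℕ) : ZMod (7 * 13)) = 0 := by decide
      have h5 : ((dotN r V % 91 : ℕ) : ZMod (7 * 13)) = ((dotN r V : ℕ) : ZMod (7 * 13)) := ZMod.natCast_mod _ (7 * 13)
      rw [h4, h5, zero_sub]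
    rw [h3]
    exact ZMod.val_natCast _ _
  rw [h1, h2]

/-- the value of the functional -/
theorem value (c : ℕ) {v : Fin 8 → ZMod 364} {V : List ℕ}
    (hV : ms chevE8 8 (vecOf (7 * 13) V) = ms chevE8 8 (fun i => 2 * c91 (v i))) {n : ℕ}
    (hn : (ms chevE8 8 (fun i => c2 (v i))).count 0 + 8 = n) :
    (((Multiset.replicate 8 0 + (ms chevE8 8 v).map (fun b : ZMod 364 => 2 * b.val)).map (fc c)).sum : ℤ) =
      ((cval c V + (tb (BG c) 0 * n + tb (BG c) 2 * (248 - n)) : ℕ) : ℤ) - ((248 * CC c : ℕ) : ℤ) := by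
  have hcard := card_ms v
  have e1 : ((Multiset.replicate 8 0 + (ms chevE8 8 v).map (fun b : ZMod 364 => 2 * b.val)).map fun κ => tb (BY c) (κ % 91)).sum =
      cval c V := by
    rw [Multiset.map_add, Multiset.sum_add, Multiset.map_replicate, Multiset.sum_replicate, Multiset.map_map]
    unfold cval
    rw [Nat.zero_mod, smul_eq_mul, ← hY_sum, hV, ms_mul (2 : ZMod (7 * 13)) (fun i => c91 (v i)), ms_map,
      Multiset.map_map, Multiset.map_map]
    congr 2
    refine Multiset.map_congr rfl fun b _ => ?_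
    simp only [Function.comp_apply]
    rw [two_val_91]
  have hcount : ((ms chevE8 8 v).filter fun b => c2 b = 0).card = (ms chevE8 8 (fun i => c2 (v i))).count 0 := by
    rw [ms_map, Multiset.count_map]
    exact congrArg Multiset.card (Multiset.filter_congr fun b _ => eq_comm)
  have hle : ((ms chevE8 8 v).filter fun b => c2 b = 0).card ≤ 240 := by
    rw [← hcard]
    exact Multiset.card_le_card (Multiset.filter_le _ _)
  have e2 : ((Multiset.replicate 8 0 + (ms chevE8 8 v).map (fun b : ZMod 364 => 2 * b.val)).map fun κ => tb (BG c) (κ % 4)).sum =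
      tb (BG c) 0 * n + tb (BG c) 2 * (248 - n) := by
    rw [Multiset.map_add, Multiset.sum_add, Multiset.map_replicate, Multiset.sum_replicate, Multiset.map_map,
      Nat.zero_mod, smul_eq_mul]
    have h1 : ((ms chevE8 8 v).map ((fun κ => tb (BG c) (κ % 4)) ∘ fun b : ZMod 364 => 2 * b.val)) =
        (ms chevE8 8 v).map fun b => if c2 b = 0 then tb (BG c) 0 else tb (BG c) 2 := by
      refine Multiset.map_congr rfl fun b _ => ?_
      simp only [Function.comp_apply]
      rw [two_val_4]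
      split_ifs <;> rfl
    rw [h1, sum_ite, hcard, hcount]
    have h2 : 248 - n = 240 - (ms chevE8 8 (fun i => c2 (v i))).count 0 := by omega
    rw [h2, ← hn]
    ring
  rw [sum_fc, e1, e2, Multiset.card_add, Multiset.card_replicate, Multiset.card_map, hcard]
  push_cast
  ring

/-- some functional is negative -/
theorem exists_neg {V : List ℕ} (hV : certOK V = true) {n : ℕ} (hn : n = 136 ∨ n = 120) :
    ∃ c < 4, cval c V + (tb (BG c) 0 * n + tb (BG c) 2 * (248 - n)) < 248 * CC c := by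
  rw [certOK, Bool.and_eq_true] at hV
  simp only [Bool.or_eq_true] at hV
  have key : ∀ c, negB c n V = true → cval c V + (tb (BG c) 0 * n + tb (BG c) 2 * (248 - n)) < 248 * CC c := by
    intro c h
    unfold negB at h
    rwa [Nat.blt_eq] at h
  rcases hn with rfl | rfl
  · rcases hV.1 with ((h | h) | h) | h
    exacts [⟨0, by norm_num, key 0 h⟩, ⟨1, by norm_num, key 1 h⟩, ⟨2, by norm_num, key 2 h⟩, ⟨3, by norm_num, key 3 h⟩]
  · rcases hV.2 with ((h | h) | h) | h
    exacts [⟨0, by norm_num, key 0 h⟩, ⟨1, by norm_num, key 1 h⟩, ⟨2, by norm_num, key 2 h⟩, ⟨3, by norm_num, key 3 h⟩]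

/-- **no `L2(729)` in `E8(3)`** -/
theorem no_L729 {F : Type*} [Field F] [Fintype F] (hF : Fintype.card F = 729)
    (H : Subgroup ↥(chevE8.group (ZMod 3))) : IsEmpty (↥H ≃* ProjectiveSpecialLinearGroup (Fin 2) F) := by
  classical
  refine ⟨fun e => ?_⟩
  have : Fact (Nat.Prime 3) := ⟨Nat.prime_three⟩
  have hchF : CharP F 3 := by
    obtain ⟨⟨m, hm⟩, hp', hcard⟩ := FiniteField.card F (ringChar F)
    rw [hF] at hcard
    have h1 : ringChar F ∣ 3 ^ 6 := by
      rw [show (3 : ℕ) ^ 6 = 729 by norm_num, hcard]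
      exact dvd_pow_self _ (by simpa using hm.ne')
    have h2 := (Nat.prime_dvd_prime_iff_eq hp' Nat.prime_three).1 (hp'.dvd_of_dvd_pow h1)
    exact h2 ▸ ringChar.charP F
  have hchk : CharP (AlgebraicClosure (ZMod 3)) 3 :=
    charP_of_injective_algebraMap (algebraMap (ZMod 3) (AlgebraicClosure (ZMod 3))).injective 3
  let _ : Algebra (ZMod 3) F := ZMod.algebra F 3
  have hfin : Module.Finite (ZMod 3) F := inferInstance
  have halg : Algebra.IsAlgebraic (ZMod 3) F := Algebra.IsAlgebraic.of_finite (ZMod 3) F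
  let ι : F →+* AlgebraicClosure (ZMod 3) := (IsAlgClosed.lift (R := ZMod 3) (S := F)
    (M := AlgebraicClosure (ZMod 3)) : F →ₐ[ZMod 3] AlgebraicClosure (ZMod 3)).toRingHom
  have hι : Function.Injective ι := ι.injective
  have hodd : Odd (Fintype.card F) := by rw [hF]; decide
  obtain ⟨lam, hlam⟩ := IsCyclic.exists_generator (α := Fˣ)
  have hprim := Cfsg.Agent.H943.SL2Mod.primitive ι hι hlam
  rw [hF] at hprim
  have hordlam : orderOf lam = 728 := by
    rw [orderOf_eq_card_of_forall_mem_zpowers hlam, Nat.card_eq_fintype_card, Fintype.card_units, hF]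
  obtain ⟨φ, hφ⟩ := exists_hom H e
  have hcen : ∀ d : ℕ, φ (h lam) ^ d = 1 ↔ 364 ∣ d := by
    intro d
    rw [← map_pow, ← h_pow, hφ, h_mem_center, ← pow_mul, ← orderOf_dvd_iff_pow_eq_one, hordlam]
    constructor
    · rintro ⟨m, hm⟩
      exact ⟨m, by omega⟩
    · rintro ⟨m, hm⟩
      exact ⟨m, by omega⟩
  have hx : φ (h lam) ^ 364 = 1 := (hcen _).2 dvd_rfl
  have hζ : IsPrimitiveRoot (ι lam ^ 2) 364 := hprim.pow (by norm_num) (by norm_num)
  obtain ⟨v, hv, hdim⟩ := exists_vals_dim e8T 3 (F := ZMod 3) (x := φ (h lam)) (N := 364) (by norm_num) (by norm_num)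
    hx hζ
  -- the components are nontrivial
  have hne : ∀ (m d : ℕ), m * d = 364 → ¬ 364 ∣ d → ¬ ∀ i, m ∣ (v i).val := by
    intro m d hmd hd hcon
    refine hd ((hcen d).1 ((hv.ord d).1 fun i => ?_))
    obtain ⟨t, ht⟩ := hcon i
    rw [← ZMod.natCast_zmod_val (v i), ht, ← Nat.cast_mul, ZMod.natCast_eq_zero_iff]
    exact ⟨t, by rw [← hmd]; ring⟩
  have hval : ∀ (m : ℕ) (hm : m ∣ 364) (b : ZMod 364), ZMod.castHom hm (ZMod m) b = 0 ↔ m ∣ b.val := by
    intro m hm b
    rw [← ZMod.natCast_eq_zero_iff]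
    have : ZMod.castHom hm (ZMod m) b = ((b.val : ℕ) : ZMod m) := by
      conv_lhs => rw [← ZMod.natCast_zmod_val b]
      rw [map_natCast]
    rw [this]
  have h2 : (fun i => c2 (v i)) ≠ 0 := by
    intro h0
    exact hne 2 182 (by norm_num) (by norm_num) fun i => (hval 2 (by norm_num) (v i)).1 (congrFun h0 i)
  let w : Fin 8 → ZMod (7 * 13) := fun i => 2 * c91 (v i)
  have hp1 : ∀ b : ZMod 364, p₁ (2 * c91 b) = 0 → 7 ∣ b.val := by
    intro b hb
    have e1 : c91 b = ((b.val : ℕ) : ZMod (7 * 13)) := by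
      conv_lhs => rw [← ZMod.natCast_zmod_val b]
      rw [map_natCast]
    rw [e1, show (2 : ZMod (7 * 13)) = ((2 : ℕ) : ZMod (7 * 13)) from rfl, ← Nat.cast_mul, map_natCast,
      ZMod.natCast_eq_zero_iff] at hb
    omega
  have hp2 : ∀ b : ZMod 364, p₂ (2 * c91 b) = 0 → 13 ∣ b.val := by
    intro b hb
    have e1 : c91 b = ((b.val : ℕ) : ZMod (7 * 13)) := by
      conv_lhs => rw [← ZMod.natCast_zmod_val b]
      rw [map_natCast]
    rw [e1, show (2 : ZMod (7 * 13)) = ((2 : ℕ) : ZMod (7 * 13)) from rfl, ← Nat.cast_mul, map_natCast,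
      ZMod.natCast_eq_zero_iff] at hb
    omega
  have h7 : (fun i => p₁ (w i)) ≠ 0 := by
    intro h0
    exact hne 7 52 (by norm_num) (by norm_num) fun i => hp1 _ (congrFun h0 i)
  have h13 : (fun i => p₂ (w i)) ≠ 0 := by
    intro h0
    exact hne 13 28 (by norm_num) (by norm_num) fun i => hp2 _ (congrFun h0 i)
  have hinv : Inv3 w := by
    have e1 := hv.frob
    rw [Nat.card_zmod] at e1
    have e2 := inv_map c91 e1
    unfold Inv3
    show ms chevE8 8 (fun i => 2 * c91 (v i)) = _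
    rw [ms_mul (2 : ZMod (7 * 13)) (fun i => c91 (v i))]
    conv_lhs => rw [e2]
    rw [Multiset.map_map, Multiset.map_map]
    refine Multiset.map_congr rfl fun b _ => ?_
    simp only [Function.comp_apply]
    ring
  obtain ⟨V, hV, hVms⟩ := class91 hinv h7 h13
  obtain ⟨n, hn, hn'⟩ : ∃ n, (ms chevE8 8 (fun i => c2 (v i))).count 0 + 8 = n ∧ (n = 136 ∨ n = 120) := by
    rcases count_two h2 with h | h
    · exact ⟨136, by rw [h], Or.inl rfl⟩
    · exact ⟨120, by rw [h], Or.inr rfl⟩
  obtain ⟨c, hc4, hc⟩ := exists_neg hV hn'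
  -- the functional
  let ρ := rep (algebraMap (ZMod 3) (AlgebraicClosure (ZMod 3))) φ
  have hh1 : φ (h (-1)) = 1 := (hφ _).2 (h_mem_center.2 (by rw [neg_one_sq]))
  have hfin := Cfsg.Agent.H943.SL2Mod.fun_nonneg ι 3 (by norm_num) hι hodd hlam (fc c) 248
    (fun b hb he hd => by
      rw [hF] at hb ⊢
      exact fc_nonneg hc4 hb he hd) 248 (chevE8.Idx → AlgebraicClosure (ZMod 3)) ρ (rep_eq_one _ _ hh1)
    (by rw [Module.finrank_fintype_fun_eq_card, card_idx]) le_rfl
  unfold Cfsg.Agent.H943.SL2Mod.Phi at hfin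
  rw [hF] at hfin
  let S : Multiset ℕ := Multiset.replicate 8 0 + (ms chevE8 8 v).map (fun b : ZMod 364 => 2 * b.val)
  have hS : ∀ a ∈ S, a < 728 := by
    intro a ha
    rcases Multiset.mem_add.1 ha with ha | ha
    · rw [Multiset.eq_of_mem_replicate ha]
      norm_num
    · obtain ⟨b, -, rfl⟩ := Multiset.mem_map.1 ha
      have := ZMod.val_lt b
      omega
  have hE : S.map (fun a => ι lam ^ a) = Multiset.replicate chevE8.rank (1 : AlgebraicClosure (ZMod 3)) +
      (ms chevE8 8 v).map (fun b => (ι lam ^ 2) ^ b.val) := by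
    show Multiset.map _ (Multiset.replicate 8 0 + (ms chevE8 8 v).map (fun b : ZMod 364 => 2 * b.val)) = _
    rw [Multiset.map_add, Multiset.map_replicate, pow_zero, Multiset.map_map]
    refine congrArg₂ (· + ·) rfl (Multiset.map_congr rfl fun b _ => ?_)
    simp only [Function.comp_apply]
    rw [pow_mul]
  have hsum : ∑ κ ∈ Finset.range (729 - 1), fc c κ * (Module.finrank (AlgebraicClosure (ZMod 3))
      (eig ρ (h lam) (ι lam ^ κ)) : ℤ) = (S.map (fc c)).sum := by
    rw [← sum_count 728 (fc c) S hS]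
    refine Finset.sum_congr rfl fun κ hκ => ?_
    have h5 := hdim (ι lam ^ κ)
    rw [← hE, count_pow hprim S hS (Finset.mem_range.1 hκ)] at h5
    rw [← h5]
    rfl
  rw [hsum, value c hVms hn] at hfin
  have h6 : ((cval c V + (tb (BG c) 0 * n + tb (BG c) 2 * (248 - n)) : ℕ) : ℤ) < ((248 * CC c : ℕ) : ℤ) := by
    exact_mod_cast hc
  linarith

end Cfsg.Agent.H943.L729
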