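import Cfsg.Agent.H943.Fusion

/-!
# The roots killed by a character of prime order with a Frobenius eigenvalue of large order (helper943, S5921)

`χ` a character of the root lattice `ℤ^l`, `χ (w x) = χ x ^ q`, of prime order `ℓ ∤ |W|`, `ℓ ∣ Φ_m(q)`, `l = φ(m) + 2`:
there are at most 12 roots `a` with `χ a = 1`.
-/

set_option autoImplicit false
set_option linter.unusedSectionVars false

namespace Cfsg.Agent.H943.LatFix

open CoxeterSystem Cfsg.Agent.ChevalleyStructure.CoxeterGeom Cfsg.Agent.Tits.Roots Cfsg.Agent.Tits.Core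
  Cfsg.Agent.Nodes.Reps Cfsg.Agent.Nodes.BNOf Polynomial
open Cfsg.Agent.H378.TorDual Cfsg.Agent.H378.LatCyc Cfsg.Agent.H378.LatRoot

universe u

variable {l : ℕ}

/-- **Independence.** -/
theorem linInd {m : ℕ} (hm : 0 < m) {w : Module.End ℤ (Fin l → ℤ)} {v : Fin l → ℤ} (hv : v ≠ 0)
    (h : aeval w (cyclotomic m ℤ) v = 0) : LinearIndependent ℚ fun i : Fin m.totient => vq ((w ^ (i : ℕ)) v) := by
  have hv' : vq v ≠ 0 := fun h0 => hv (vq_eq_zero.1 h0)
  have h' : aeval (toQ w) (cyclotomic m ℚ) (vq v) = 0 := by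
    rw [← map_cyclotomic_int m ℚ, ← toQ_aeval, toQ_vq, h]
    exact vq_eq_zero.2 rfl
  rw [Fintype.linearIndependent_iff]
  intro c hc
  obtain ⟨P, hP⟩ : ∃ P : ℚ[X], P = ∑ i : Fin m.totient, C (c i) * X ^ (i : ℕ) := ⟨_, rfl⟩
  have hPv : aeval (toQ w) P (vq v) = 0 := by
    rw [hP, map_sum, LinearMap.sum_apply, ← hc]
    refine Finset.sum_congr rfl fun i _ => ?_
    rw [map_mul, aeval_C, map_pow, aeval_X, Module.End.mul_apply, Module.algebraMap_end_apply]
    congr 1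
    rw [← map_pow, toQ_vq]
  have hdeg : P.degree < m.totient := by
    rw [hP]
    exact degree_sum_fin_lt c
  have hP0 : P = 0 := by
    by_contra hne
    rcases (cyclotomic.irreducible_rat hm).isCoprime_or_dvd P with h1 | h1
    · obtain ⟨a, b, hab⟩ := h1
      apply hv'
      have h2 : aeval (toQ w) (a * cyclotomic m ℚ + b * P) (vq v) = vq v := by
        rw [hab, map_one, Module.End.one_apply]
      rw [← h2, map_add, map_mul, map_mul, LinearMap.add_apply, Module.End.mul_apply, Module.End.mul_apply, h', hPv,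
        map_zero, map_zero, add_zero]
    · have h2 := degree_le_of_dvd h1 hne
      rw [degree_cyclotomic] at h2
      exact absurd hdeg (not_lt.2 h2)
  intro i
  have h3 : P.coeff i = c i := by
    rw [hP, finsetSum_coeff, Finset.sum_eq_single i]
    · rw [coeff_C_mul, coeff_X_pow, if_pos rfl, mul_one]
    · intro j _ hj
      rw [coeff_C_mul, coeff_X_pow, if_neg (fun h0 => hj (Fin.ext h0.symm)), mul_zero]
    · intro hi
      exact absurd (Finset.mem_univ i) hi
  rw [← h3, hP0, coeff_zero]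

/-! ### the form -/

/-- the rational form -/
def ipQ (A : Fin l → Fin l → ℤ) (x y : Fin l → ℚ) : ℚ := ∑ i, x i * ∑ j, (A i j : ℚ) * y j

/-- the integral form -/
def ip (A : Fin l → Fin l → ℤ) (x y : Fin l → ℤ) : ℤ := ∑ i, x i * pairing A i y

theorem ipQ_vq (A : Fin l → Fin l → ℤ) (x y : Fin l → ℤ) : ipQ A (vq x) (vq y) = (ip A x y : ℚ) := by
  unfold ipQ ip pairing vq
  push_cast
  rfl

theorem ipQ_add_left (A : Fin l → Fin l → ℤ) (x x' y : Fin l → ℚ) : ipQ A (x + x') y = ipQ A x y + ipQ A x' y := by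
  unfold ipQ
  rw [← Finset.sum_add_distrib]
  refine Finset.sum_congr rfl fun i _ => ?_
  rw [Pi.add_apply, add_mul]

theorem ipQ_smul_left (A : Fin l → Fin l → ℤ) (c : ℚ) (x y : Fin l → ℚ) : ipQ A (c • x) y = c * ipQ A x y := by
  unfold ipQ
  rw [Finset.mul_sum]
  refine Finset.sum_congr rfl fun i _ => ?_
  rw [Pi.smul_apply, smul_eq_mul, mul_assoc]

theorem ipQ_symm {A : Fin l → Fin l → ℤ} (hA : ∀ i j, A i j = A j i) (x y : Fin l → ℚ) : ipQ A x y = ipQ A y x := by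
  unfold ipQ
  simp only [Finset.mul_sum]
  rw [Finset.sum_comm]
  refine Finset.sum_congr rfl fun i _ => Finset.sum_congr rfl fun j _ => ?_
  rw [hA j i]
  ring

theorem ip_symm {A : Fin l → Fin l → ℤ} (hA : ∀ i j, A i j = A j i) (x y : Fin l → ℤ) : ip A x y = ip A y x := by
  have h := ipQ_symm hA (vq x) (vq y)
  rw [ipQ_vq, ipQ_vq] at h
  exact_mod_cast h

theorem ip_add_left (A : Fin l → Fin l → ℤ) (x x' y : Fin l → ℤ) : ip A (x + x') y = ip A x y + ip A x' y := by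
  unfold ip
  rw [← Finset.sum_add_distrib]
  refine Finset.sum_congr rfl fun i _ => ?_
  rw [Pi.add_apply, add_mul]

theorem ip_smul_left (A : Fin l → Fin l → ℤ) (c : ℤ) (x y : Fin l → ℤ) : ip A (c • x) y = c * ip A x y := by
  unfold ip
  rw [Finset.mul_sum]
  refine Finset.sum_congr rfl fun i _ => ?_
  rw [Pi.smul_apply, smul_eq_mul, mul_assoc]

theorem ip_neg_left (A : Fin l → Fin l → ℤ) (x y : Fin l → ℤ) : ip A (-x) y = -ip A x y := by
  have h := ip_smul_left A (-1) x y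
  rw [neg_one_smul] at h
  rw [h]; ring

theorem ip_sub_left (A : Fin l → Fin l → ℤ) (x x' y : Fin l → ℤ) : ip A (x - x') y = ip A x y - ip A x' y := by
  rw [sub_eq_add_neg, ip_add_left, ip_neg_left]; ring

theorem ip_sum_left {A : Fin l → Fin l → ℤ} {ι : Type*} (s : Finset ι) (f : ι → Fin l → ℤ) (y : Fin l → ℤ) :
    ip A (∑ i ∈ s, f i) y = ∑ i ∈ s, ip A (f i) y := by
  classical
  induction s using Finset.induction_on with
  | empty =>
    rw [Finset.sum_empty, Finset.sum_empty]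
    unfold ip
    simp
  | insert a s ha ih => rw [Finset.sum_insert ha, Finset.sum_insert ha, ip_add_left, ih]

theorem ip_sr (A : Fin l → Fin l → ℤ) (i : Fin l) (y : Fin l → ℤ) : ip A (sr i) y = pairing A i y := by
  unfold ip sr
  rw [Finset.sum_eq_single i]
  · rw [Pi.single_eq_same, one_mul]
  · intro j _ hj
    rw [Pi.single_eq_of_ne hj, zero_mul]
  · intro h
    exact absurd (Finset.mem_univ i) h

variable {W : Type*} [Group W] {M : CoxeterMatrix (Fin l)} {cs : CoxeterSystem M W}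
  {A : Fin l → Fin l → ℤ} {h : IsCartan M A} {k : Type u} [Field k]

theorem ip_refl (hA : ∀ i j, A i j = A j i) (h2 : ∀ i, A i i = 2) (i : Fin l) (x y : Fin l → ℤ) :
    ip A (refl A i x) (refl A i y) = ip A x y := by
  have e1 : ∀ z : Fin l → ℤ, refl A i z = z - pairing A i z • sr i := fun z => by
    rw [refl_apply, single_eq_smul]
    rfl
  have e2 : ip A (sr i) (sr i) = 2 := by
    rw [ip_sr]
    unfold pairing sr
    rw [Finset.sum_eq_single i]
    · rw [Pi.single_eq_same, mul_one, h2]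
    · intro j _ hj
      rw [Pi.single_eq_of_ne hj, mul_zero]
    · intro h
      exact absurd (Finset.mem_univ i) h
  rw [e1, e1, ip_sub_left, ip_smul_left, ip_symm hA x, ip_sub_left, ip_smul_left, ip_sr, ip_symm hA (sr i),
    ip_sub_left, ip_smul_left, e2, ip_symm hA y, ip_symm hA y (sr i), ip_sr]
  ring

theorem ip_rep (hA : ∀ i j, A i j = A j i) (h2 : ∀ i, A i i = 2) (v : W) (x y : Fin l → ℤ) :
    ip A (rep cs h v x) (rep cs h v y) = ip A x y := by
  induction v using cs.simple_induction_left generalizing x y with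
  | one => rw [map_one]; rfl
  | mul_simple_left w i ih =>
    rw [rep_mul_apply, rep_mul_apply, rep_simple, ip_refl hA h2, ih]

theorem ip_rep' (hA : ∀ i j, A i j = A j i) (h2 : ∀ i, A i i = 2) (v : W) (x y : Fin l → ℤ) :
    ip A x (rep cs h v y) = ip A (rep cs h v⁻¹ x) y := by
  rw [← ip_rep (cs := cs) (h := h) hA h2 v (rep cs h v⁻¹ x) y, rep_apply_inv]

theorem ip_root (hA : ∀ i j, A i j = A j i) (h2 : ∀ i, A i i = 2) {a : Fin l → ℤ} (ha : IsRoot cs h a) : ip A a a = 2 := by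
  obtain ⟨v, i, rfl⟩ := ha
  rw [ip_rep hA h2, ip_sr]
  unfold pairing sr
  rw [Finset.sum_eq_single i]
  · rw [Pi.single_eq_same, mul_one, h2]
  · intro j _ hj
    rw [Pi.single_eq_of_ne hj, mul_zero]
  · intro h
    exact absurd (Finset.mem_univ i) h

/-! ### the roots killed by a character -/

/-- the orthogonal space of the roots killed by `χ` -/
def UU (cs : CoxeterSystem M W) (h : IsCartan M A) (χ : Ch l k) : Submodule ℤ (Fin l → ℤ) where
  carrier := {u | ∀ a, IsRoot cs h a → χ (Multiplicative.ofAdd a) = 1 → ip A u a = 0}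
  zero_mem' a _ _ := by
    have := ip_smul_left A 0 0 a
    rwa [zero_smul, zero_mul] at this
  add_mem' {x y} hx hy a ha h1 := by rw [ip_add_left, hx a ha h1, hy a ha h1, add_zero]
  smul_mem' c x hx a ha h1 := by rw [ip_smul_left, hx a ha h1, mul_zero]

section

variable [Finite W]

noncomputable local instance fintypeStab' (χ : Ch l k) : Fintype ↥(stab cs h χ) := Fintype.ofFinite _

theorem ip_avg (hA : ∀ i j, A i j = A j i) (h2 : ∀ i, A i i = 2) (χ : Ch l k) (x y : Fin l → ℤ) :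
    ip A (avg cs h χ x) y = ip A (avg cs h χ y) x := by
  rw [ip_symm hA (avg cs h χ y) x]
  have e1 : avg cs h χ x = ∑ v : ↥(stab cs h χ), rep cs h v.1 x := by
    unfold avg
    rw [LinearMap.sum_apply]
  have e2 : avg cs h χ y = ∑ v : ↥(stab cs h χ), rep cs h v.1 y := by
    unfold avg
    rw [LinearMap.sum_apply]
  rw [e1, e2, ip_sum_left, ip_symm hA x, ip_sum_left]
  refine Fintype.sum_equiv (Equiv.inv _) _ _ fun v => ?_
  rw [ip_symm hA (rep cs h _ y), ip_rep' hA h2]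
  show _ = ip A (rep cs h ((v⁻¹ : ↥(stab cs h χ)).1)⁻¹ x) y
  rw [show ((v⁻¹ : ↥(stab cs h χ)).1)⁻¹ = v.1 by simp]

theorem avg_mem_UU (hA : ∀ i j, A i j = A j i) (h2 : ∀ i, A i i = 2) (χ : Ch l k) (x : Fin l → ℤ) :
    avg cs h χ x ∈ UU cs h χ := by
  intro a ha h1
  rw [ip_avg hA h2, avg_root ha h1]
  have := ip_smul_left A 0 0 x
  rwa [zero_smul, zero_mul] at this

theorem rep_mem_UU (hA : ∀ i j, A i j = A j i) (h2 : ∀ i, A i i = 2) {χ : Ch l k} {w : W} {q : ℤ} {ℓ : ℕ}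
    (hℓ : ℓ.Prime) (hq : ¬ (ℓ : ℤ) ∣ q) (hχℓ : χ ^ ℓ = 1)
    (hχ : χ ∈ KerOf k (rep cs h w - q • (1 : Module.End ℤ (Fin l → ℤ)))) {u : Fin l → ℤ} (hu : u ∈ UU cs h χ) :
    rep cs h w u ∈ UU cs h χ := by
  intro a ha h1
  rw [ip_symm hA, ip_rep' hA h2, ip_symm hA]
  refine hu _ (ha.act _) ?_
  have h3 := kerOf_aeval hχ X (rep cs h w⁻¹ a)
  rw [aeval_X, rep_apply_inv, h1, eval_X] at h3
  have h4 : χ (Multiplicative.ofAdd (rep cs h w⁻¹ a)) ^ ℓ = 1 := by rw [← MonoidHom.pow_apply, hχℓ, MonoidHom.one_apply]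
  by_contra hne
  have hord : orderOf (χ (Multiplicative.ofAdd (rep cs h w⁻¹ a))) = ℓ :=
    ((Nat.dvd_prime hℓ).1 (orderOf_dvd_of_pow_eq_one h4)).resolve_left fun h5 => hne (orderOf_eq_one_iff.1 h5)
  apply hq
  rw [← hord]
  exact orderOf_dvd_iff_zpow_eq_one.2 h3.symm

theorem aeval_mem {U : Submodule ℤ (Fin l → ℤ)} {w : Module.End ℤ (Fin l → ℤ)} (hU : ∀ x ∈ U, w x ∈ U) (P : ℤ[X])
    {x : Fin l → ℤ} (hx : x ∈ U) : aeval w P x ∈ U := by
  induction P using Polynomial.induction_on' with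
  | add p q hp hq =>
    rw [map_add, LinearMap.add_apply]
    exact add_mem hp hq
  | monomial n a =>
    rw [aeval_monomial, Module.End.mul_apply, Module.algebraMap_end_apply]
    refine U.smul_mem _ ?_
    induction n with
    | zero => exact hx
    | succ n ih =>
      rw [pow_succ']
      exact hU _ ih

/-- a vector of `UU` killed by the cyclotomic polynomial -/
theorem exists_v0 (hA : ∀ i j, A i j = A j i) (h2 : ∀ i, A i i = 2) {m : ℕ} (hm : 0 < m) {w : W} {ℓ : ℕ}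
    (hℓ : ℓ.Prime) (hℓW : ¬ ℓ ∣ Nat.card W) (hℓm : ¬ ℓ ∣ m) {q : ℤ}
    (hq : (ℓ : ℤ) ∣ (cyclotomic m ℤ).eval q) (hq0 : ¬ (ℓ : ℤ) ∣ q) {χ : Ch l k}
    (hχ : χ ∈ KerOf k (rep cs h w - q • (1 : Module.End ℤ (Fin l → ℤ)))) (hχ1 : χ ≠ 1) (hχℓ : χ ^ ℓ = 1) :
    ∃ v : Fin l → ℤ, v ≠ 0 ∧ aeval (rep cs h w) (cyclotomic m ℤ) v = 0 ∧ v ∈ UU cs h χ := by
  set N := Nat.card W with hNdef
  have hN : 0 < N := Nat.card_pos
  obtain ⟨R, hR⟩ := cyclotomic.dvd_X_pow_sub_one m ℤ
  obtain ⟨S, hS⟩ : (X ^ m - 1 : ℤ[X]) ∣ X ^ (N * m) - 1 := by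
    have := sub_dvd_pow_sub_pow (X ^ m : ℤ[X]) 1 N
    rwa [one_pow, ← pow_mul, mul_comm m N] at this
  obtain ⟨Q, hQ⟩ : ∃ Q : ℤ[X], X ^ (N * m) - 1 = cyclotomic m ℤ * Q := ⟨R * S, by rw [hS, hR, mul_assoc]⟩
  have hNm : ¬ ℓ ∣ N * m := fun h => (hℓ.dvd_mul.1 h).elim hℓW hℓm
  have hw : rep cs h w ^ N = 1 := by rw [← map_pow, hNdef, pow_card_eq_one', map_one]
  have hzero : ∀ x, aeval (rep cs h w) (cyclotomic m ℤ) (aeval (rep cs h w) Q x) = 0 := by
    intro x
    rw [← Module.End.mul_apply, ← map_mul, ← hQ, map_sub, map_pow, aeval_X, map_one, pow_mul, hw, one_pow, sub_self,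
      LinearMap.zero_apply]
  obtain ⟨x, hx⟩ : ∃ x : Fin l → ℤ, χ (Multiplicative.ofAdd x) ≠ 1 := by
    by_contra hcon
    push Not at hcon
    exact hχ1 (MonoidHom.ext fun x => hcon (Multiplicative.toAdd x))
  obtain ⟨y, hy⟩ : ∃ y, y = avg cs h χ x := ⟨_, rfl⟩
  have hcop : (Nat.card ↥(stab cs h χ)).Coprime ℓ :=
    ((Nat.Prime.coprime_iff_not_dvd hℓ).2 fun h2 => hℓW (h2.trans (Subgroup.card_subgroup_dvd_card _))).symm
  have hyne : χ (Multiplicative.ofAdd y) ≠ 1 := by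
    intro h3
    rw [hy, chi_avg] at h3
    exact hx (pow_eq_one_of_coprime h3 (by rw [← MonoidHom.pow_apply, hχℓ, MonoidHom.one_apply]) hcop)
  have hyU : y ∈ UU cs h χ := by rw [hy]; exact avg_mem_UU hA h2 χ x
  refine ⟨aeval (rep cs h w) Q y, ?_, hzero y, aeval_mem (fun z hz => rep_mem_UU hA h2 hℓ hq0 hχℓ hχ hz) Q hyU⟩
  intro hcase
  have hord : orderOf (χ (Multiplicative.ofAdd y)) = ℓ := by
    have h1 : χ (Multiplicative.ofAdd y) ^ ℓ = 1 := by
      rw [← MonoidHom.pow_apply, hχℓ, MonoidHom.one_apply]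
    exact ((Nat.dvd_prime hℓ).1 (orderOf_dvd_of_pow_eq_one h1)).resolve_left fun h2 => hyne (orderOf_eq_one_iff.1 h2)
  have hdvd : ∀ P : ℤ[X], aeval (rep cs h w) P y = 0 → (ℓ : ℤ) ∣ P.eval q := by
    intro P hP
    have h1 := kerOf_aeval hχ P y
    rw [hP, ofAdd_zero, map_one] at h1
    rw [← hord]
    exact orderOf_dvd_iff_zpow_eq_one.2 h1.symm
  have hQq := hdvd Q hcase
  have hd := congrArg (fun P : ℤ[X] => (derivative P).eval q) hQ
  simp only [derivative_sub, derivative_X_pow, derivative_one, sub_zero, derivative_mul, eval_add, eval_mul,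
    eval_pow, eval_X, eval_C] at hd
  have h1 : (ℓ : ℤ) ∣ ((N * m : ℕ) : ℤ) * q ^ (N * m - 1) := by
    have h3 : ((N * m : ℕ) : ℤ) * q ^ (N * m - 1) = eval q (derivative (cyclotomic m ℤ)) * eval q Q +
        eval q (cyclotomic m ℤ) * eval q (derivative Q) := hd
    rw [h3]
    exact dvd_add (Dvd.dvd.mul_left hQq _) (Dvd.dvd.mul_right hq _)
  have hℓ' : Prime (ℓ : ℤ) := Nat.prime_iff_prime_int.1 hℓ
  rcases hℓ'.dvd_mul.1 h1 with h2 | h2
  · exact hNm (by exact_mod_cast h2)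
  · exact hq0 (hℓ'.dvd_of_dvd_pow h2)

/-- the span of the roots killed by `χ` meets the orthogonal space trivially -/
theorem no_three (hA : ∀ i j, A i j = A j i) (h2 : ∀ i, A i i = 2)
    (hpos : ∀ x : Fin l → ℚ, ipQ A x x = 0 → x = 0) {m : ℕ} (hm : 0 < m) (hl : l = m.totient + 2) {w : W} {ℓ : ℕ}
    (hℓ : ℓ.Prime) (hℓW : ¬ ℓ ∣ Nat.card W) (hℓm : ¬ ℓ ∣ m) {q : ℤ}
    (hq : (ℓ : ℤ) ∣ (cyclotomic m ℤ).eval q) (hq0 : ¬ (ℓ : ℤ) ∣ q) {χ : Ch l k}
    (hχ : χ ∈ KerOf k (rep cs h w - q • (1 : Module.End ℤ (Fin l → ℤ)))) (hχ1 : χ ≠ 1) (hχℓ : χ ^ ℓ = 1)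
    {a : Fin 3 → (Fin l → ℤ)} (ha : ∀ i, ∀ u ∈ UU cs h χ, ip A u (a i) = 0) :
    ¬ LinearIndependent ℚ fun i => vq (a i) := by
  intro hli
  obtain ⟨v, hv0, hv, hvU⟩ := exists_v0 hA h2 hm hℓ hℓW hℓm hq hq0 hχ hχ1 hχℓ
  have hvi : ∀ i : ℕ, (rep cs h w ^ i) v ∈ UU cs h χ := by
    intro i
    induction i with
    | zero => exact hvU
    | succ n ih =>
      rw [pow_succ']
      exact rep_mem_UU hA h2 hℓ hq0 hχℓ hχ ih
  have h3 := linInd hm hv0 hv
  have key : ∀ x ∈ Submodule.span ℚ (Set.range fun i => vq (a i)), ∀ y ∈ Submodule.span ℚ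
      (Set.range fun i : Fin m.totient => vq ((rep cs h w ^ (i : ℕ)) v)), ipQ A x y = 0 := by
    intro x hx y hy
    refine Submodule.span_induction ?_ ?_ ?_ ?_ hx
    · rintro _ ⟨i, rfl⟩
      refine Submodule.span_induction ?_ ?_ ?_ ?_ hy
      · rintro _ ⟨j, rfl⟩
        show ipQ A (vq (a i)) (vq _) = 0
        rw [ipQ_symm hA, ipQ_vq, ha i _ (hvi j), Int.cast_zero]
      · rw [ipQ_symm hA]
        have := ipQ_smul_left A 0 0 (vq (a i))
        rwa [zero_smul, zero_mul] at this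
      · intro y z _ _ hy hz
        rw [ipQ_symm hA, ipQ_add_left, ipQ_symm hA, hy, ipQ_symm hA, hz, add_zero]
      · intro c y _ hy
        rw [ipQ_symm hA, ipQ_smul_left, ipQ_symm hA, hy, mul_zero]
    · have := ipQ_smul_left A 0 0 y
      rwa [zero_smul, zero_mul] at this
    · intro x z _ _ hx hz
      rw [ipQ_add_left, hx, hz, add_zero]
    · intro c x _ hx
      rw [ipQ_smul_left, hx, mul_zero]
  have hdis : Disjoint (Submodule.span ℚ (Set.range fun i => vq (a i))) (Submodule.span ℚ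
      (Set.range fun i : Fin m.totient => vq ((rep cs h w ^ (i : ℕ)) v))) := by
    rw [Submodule.disjoint_def]
    intro x hx hy
    exact hpos x (key x hx x hy)
  have h4 := (hli.sum_type h3 hdis).fintype_card_le_finrank
  rw [Fintype.card_sum, Fintype.card_fin, Fintype.card_fin, Module.finrank_fintype_fun_eq_card, Fintype.card_fin] at h4
  omega

theorem UU_of_root (hA : ∀ i j, A i j = A j i) {χ : Ch l k} {a : Fin l → ℤ} (ha : IsRoot cs h a)
    (h1 : χ (Multiplicative.ofAdd a) = 1) : ∀ u ∈ UU cs h χ, ip A u a = 0 := fun u hu => hu a ha h1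

/-- **At most 12 roots are killed.** -/
theorem card_le (hA : ∀ i j, A i j = A j i) (h2 : ∀ i, A i i = 2)
    (hpos : ∀ x : Fin l → ℚ, ipQ A x x = 0 → x = 0) (hnn : ∀ x : Fin l → ℤ, 0 ≤ ip A x x)
    {m : ℕ} (hm : 0 < m) (hl : l = m.totient + 2) {w : W} {ℓ : ℕ}
    (hℓ : ℓ.Prime) (hℓW : ¬ ℓ ∣ Nat.card W) (hℓm : ¬ ℓ ∣ m) {q : ℤ}
    (hq : (ℓ : ℤ) ∣ (cyclotomic m ℤ).eval q) (hq0 : ¬ (ℓ : ℤ) ∣ q) {χ : Ch l k}
    (hχ : χ ∈ KerOf k (rep cs h w - q • (1 : Module.End ℤ (Fin l → ℤ)))) (hχ1 : χ ≠ 1) (hχℓ : χ ^ ℓ = 1)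
    (Z : Finset (Fin l → ℤ)) (hZ : ∀ a ∈ Z, IsRoot cs h a ∧ χ (Multiplicative.ofAdd a) = 1) : Z.card ≤ 12 := by
  classical
  have hpos' : ∀ x : Fin l → ℤ, ip A x x = 0 → x = 0 := by
    intro x hx
    have h3 := hpos (vq x) (by rw [ipQ_vq, hx, Int.cast_zero])
    exact vq_eq_zero.1 h3
  -- inner products of roots
  have hsub : ∀ a b : Fin l → ℤ, ip A a a = 2 → ip A b b = 2 → ip A (a - b) (a - b) = 4 - 2 * ip A a b := by
    intro a b ha hb
    rw [ip_sub_left, ip_symm hA a, ip_symm hA b, ip_sub_left, ip_sub_left, ha, hb, ip_symm hA b a]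
    ring
  have hadd : ∀ a b : Fin l → ℤ, ip A a a = 2 → ip A b b = 2 → ip A (a + b) (a + b) = 4 + 2 * ip A a b := by
    intro a b ha hb
    rw [ip_add_left, ip_symm hA a, ip_symm hA b, ip_add_left, ip_add_left, ha, hb, ip_symm hA b a]
    ring
  have hbd : ∀ a b : Fin l → ℤ, ip A a a = 2 → ip A b b = 2 → -2 ≤ ip A a b ∧ ip A a b ≤ 2 ∧
      (ip A a b = 2 → b = a) ∧ (ip A a b = -2 → b = -a) := by
    intro a b ha hb
    have h3 := hnn (a - b)
    have h4 := hnn (a + b)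
    rw [hsub a b ha hb] at h3
    rw [hadd a b ha hb] at h4
    refine ⟨by omega, by omega, fun h5 => ?_, fun h5 => ?_⟩
    · have h6 := hpos' (a - b) (by rw [hsub a b ha hb]; omega)
      exact (sub_eq_zero.1 h6).symm
    · have h6 := hpos' (a + b) (by rw [hadd a b ha hb]; omega)
      exact (neg_eq_of_add_eq_zero_right h6).symm
  have hroot : ∀ a ∈ Z, ip A a a = 2 := fun a ha => ip_root hA h2 (hZ a ha).1
  rcases Z.eq_empty_or_nonempty with rfl | ⟨a, ha⟩
  · simp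
  by_cases hall : ∀ b ∈ Z, b = a ∨ b = -a
  · have h3 : Z ⊆ {a, -a} := by
      intro b hb
      rw [Finset.mem_insert, Finset.mem_singleton]
      exact hall b hb
    exact (Finset.card_le_card h3).trans ((Finset.card_le_two).trans (by norm_num))
  push Not at hall
  obtain ⟨b, hb, hba, hba'⟩ := hall
  have haa := hroot a ha
  have hbb := hroot b hb
  obtain ⟨g1, g2, g3, g4⟩ := hbd a b haa hbb
  have hg3 : ip A a b ≠ 2 := fun h => hba (g3 h)
  have hg4 : ip A a b ≠ -2 := fun h => hba' (g4 h)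
  obtain ⟨g, hg⟩ : ∃ g, g = ip A a b := ⟨_, rfl⟩
  rw [← hg] at g1 g2 hg3 hg4
  have hgr : g = -1 ∨ g = 0 ∨ g = 1 := by omega
  -- injectivity
  have hinj : ∀ u : Fin l → ℤ, (∀ y ∈ UU cs h χ, ip A y u = 0) → ip A a u = 0 → ip A b u = 0 → u = 0 := by
    intro u hu hau hbu
    by_contra hu0
    have huu : ip A u u ≠ 0 := fun h => hu0 (hpos' u h)
    have hab : ∀ i, ∀ y ∈ UU cs h χ, ip A y ((![a, b, u] : Fin 3 → Fin l → ℤ) i) = 0 := by
      intro i
      fin_cases i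
      · exact UU_of_root hA (hZ a ha).1 (hZ a ha).2
      · exact UU_of_root hA (hZ b hb).1 (hZ b hb).2
      · exact hu
    refine no_three hA h2 hpos hm hl hℓ hℓW hℓm hq hq0 hχ hχ1 hχℓ hab ?_
    rw [Fintype.linearIndependent_iff]
    intro c hc
    rw [Fin.sum_univ_three] at hc
    have hc' : c 0 • vq a + c 1 • vq b + c 2 • vq u = 0 := hc
    have key : ∀ y : Fin l → ℤ, c 0 * (ip A a y : ℚ) + c 1 * (ip A b y : ℚ) + c 2 * (ip A u y : ℚ) = 0 := by
      intro y
      rw [← ipQ_vq, ← ipQ_vq, ← ipQ_vq, ← ipQ_smul_left, ← ipQ_smul_left, ← ipQ_smul_left, ← ipQ_add_left,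
        ← ipQ_add_left, hc']
      have := ipQ_smul_left A 0 0 (vq y)
      rwa [zero_smul, zero_mul] at this
    have k1 := key u
    have k2 := key a
    have k3 := key b
    rw [hau, hbu, Int.cast_zero, mul_zero, mul_zero, zero_add, zero_add] at k1
    have hc2 : c 2 = 0 := (mul_eq_zero.1 k1).resolve_right (by exact_mod_cast huu)
    rw [haa, ip_symm hA b a, ← hg, hc2, zero_mul, add_zero] at k2
    rw [hbb, ← hg, hc2, zero_mul, add_zero] at k3
    have h01 : c 0 = 0 ∧ c 1 = 0 := by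
      rcases hgr with h | h | h <;> rw [h] at k2 k3 <;> push_cast at k2 k3 <;> constructor <;> linarith
    intro i
    fin_cases i
    · exact h01.1
    · exact h01.2
    · exact hc2
  -- the map
  let f : (Fin l → ℤ) → ℤ × ℤ := fun c => (ip A a c, ip A b c)
  have hf : Set.InjOn f ↑Z := by
    intro c hc d hd hcd
    have hc1 : ip A a c = ip A a d := congrArg Prod.fst hcd
    have hc2 : ip A b c = ip A b d := congrArg Prod.snd hcd
    have h3 := hinj (c - d) (by
      intro y hy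
      rw [ip_symm hA, ip_sub_left, ip_symm hA c, ip_symm hA d, hy c (hZ c hc).1 (hZ c hc).2,
        hy d (hZ d hd).1 (hZ d hd).2, sub_zero])
      (by rw [ip_symm hA, ip_sub_left, ip_symm hA c, ip_symm hA d, hc1, sub_self])
      (by rw [ip_symm hA, ip_sub_left, ip_symm hA c, ip_symm hA d, hc2, sub_self])
    exact sub_eq_zero.1 h3
  let L : List (ℤ × ℤ) := [(2, g), (-2, -g), (g, 2), (-g, -2), (-1, -1), (-1, 0), (-1, 1), (0, -1), (0, 1), (1, -1),
    (1, 0), (1, 1)]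
  obtain ⟨T, hTL⟩ : ∃ T : Finset (ℤ × ℤ), T = L.toFinset := ⟨_, rfl⟩
  have hT : T.card ≤ 12 := by rw [hTL]; exact List.toFinset_card_le L
  have hmaps : ∀ c ∈ Z, f c ∈ T := by
    intro c hc
    obtain ⟨a1, a2, a3, a4⟩ := hbd a c haa (hroot c hc)
    obtain ⟨b1, b2, b3, b4⟩ := hbd b c hbb (hroot c hc)
    show (ip A a c, ip A b c) ∈ T
    rw [hTL, List.mem_toFinset]
    by_cases p1 : ip A a c = 2
    · have := a3 p1
      subst this
      rw [haa, ip_symm hA b c, ← hg]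
      simp [L]
    by_cases p2 : ip A a c = -2
    · have := a4 p2
      subst this
      rw [ip_symm hA a (-a), ip_neg_left, haa, ip_symm hA b (-a), ip_neg_left, ← hg]
      simp [L]
    by_cases p3 : ip A b c = 2
    · have := b3 p3
      subst this
      rw [hbb, ← hg]
      simp [L]
    by_cases p4 : ip A b c = -2
    · have := b4 p4
      subst this
      rw [ip_symm hA b (-b), ip_neg_left, hbb, ip_symm hA a (-b), ip_neg_left, ip_symm hA b a, ← hg]
      simp [L]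
    have p5 : ¬ (ip A a c = 0 ∧ ip A b c = 0) := by
      rintro ⟨p5, p6⟩
      have h3 := hinj c (fun y hy => hy c (hZ c hc).1 (hZ c hc).2) p5 p6
      have h4 := hroot c hc
      rw [h3] at h4
      have h5 := ip_smul_left A 0 0 0
      rw [zero_smul, zero_mul] at h5
      rw [h5] at h4
      exact absurd h4 (by norm_num)
    have q1 : ip A a c = -1 ∨ ip A a c = 0 ∨ ip A a c = 1 := by omega
    have q2 : ip A b c = -1 ∨ ip A b c = 0 ∨ ip A b c = 1 := by omega
    rcases q1 with q1 | q1 | q1 <;> rcases q2 with q2 | q2 | q2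
    case inr.inl.inr.inl => exact absurd ⟨q1, q2⟩ p5
    all_goals
      rw [q1, q2]
      simp [L]
  calc Z.card = (Z.image f).card := (Finset.card_image_of_injOn hf).symm
    _ ≤ T.card := Finset.card_le_card fun x hx => by
        obtain ⟨c, hc, rfl⟩ := Finset.mem_image.1 hx
        exact hmaps c hc
    _ ≤ 12 := hT

end

end Cfsg.Agent.H943.LatFix
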