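import Cfsg.Agent.H943.SL2End

/-!
# The Steinberg type (helper943)

* `finrank_inv` : the functions invariant under an involution without fixed points;
* `st_of_type` : `D` fixed by the torus and `S = -1` on `D`: the module has dimension `q`, and if `-1` is not a square
  the fixed space of `w` has dimension `(q - 1) / 2`.
-/

set_option autoImplicit false
set_option linter.unusedSectionVars false

namespace Cfsg.Agent.H943.SL2Mod

open Matrix Cfsg.Agent.H943.SL2Rel Cfsg.Agent.H943.RepAdd

/-- the functions invariant under an involution without fixed points -/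
theorem finrank_inv {k : Type*} [Field k] {X : Type*} [Fintype X] (σ : X → X) (h1 : ∀ x, σ (σ x) = x)
    (h2 : ∀ x, σ x ≠ x) (C : Submodule k (X → k)) (hC : ∀ f, f ∈ C ↔ ∀ x, f (σ x) = f x) :
    2 * Module.finrank k C = Fintype.card X := by
  classical
  let e := Fintype.equivFin X
  let S : Finset X := Finset.univ.filter fun x => e x < e (σ x)
  have hS : ∀ x, x ∈ S ↔ e x < e (σ x) := fun x => by simp [S]
  have hS2 : ∀ x, x ∉ S ↔ σ x ∈ S := by
    intro x
    rw [hS, hS, h1, not_lt]
    constructor
    · intro h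
      exact lt_of_le_of_ne h fun h0 => h2 x (e.injective h0)
    · exact le_of_lt
  have hcard : 2 * S.card = Fintype.card X := by
    have h3 : S.card = Sᶜ.card := by
      refine Finset.card_bij (fun x _ => σ x) ?_ ?_ ?_
      · intro x hx
        rw [Finset.mem_compl, hS2, h1]
        exact hx
      · intro x _ y _ h
        rw [← h1 x, h, h1]
      · intro y hy
        exact ⟨σ y, (hS2 y).1 (Finset.mem_compl.1 hy), h1 y⟩
    have h4 := Finset.card_add_card_compl S
    omega
  let r : C →ₗ[k] (S → k) :=
    { toFun := fun f s => (f : X → k) s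
      map_add' := fun f g => rfl
      map_smul' := fun c f => rfl }
  have hr : Function.Bijective r := by
    constructor
    · intro f g h
      apply Subtype.ext
      funext x
      by_cases hx : x ∈ S
      · exact congrFun h ⟨x, hx⟩
      · have h3 := congrFun h ⟨σ x, (hS2 x).1 hx⟩
        have h4 : (f : X → k) (σ x) = (g : X → k) (σ x) := h3
        rwa [(hC _).1 f.2, (hC _).1 g.2] at h4
    · intro g
      refine ⟨⟨fun x => if hx : x ∈ S then g ⟨x, hx⟩ else g ⟨σ x, (hS2 x).1 hx⟩, ?_⟩, ?_⟩
      · rw [hC]
        intro x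
        by_cases hx : x ∈ S
        · have hσ : σ x ∉ S := by rw [hS2, h1]; exact hx
          have e1 : (⟨σ (σ x), (hS2 (σ x)).1 hσ⟩ : S) = ⟨x, hx⟩ := Subtype.ext (h1 x)
          rw [dif_pos hx, dif_neg hσ, e1]
        · have hσ : σ x ∈ S := (hS2 x).1 hx
          rw [dif_neg hx, dif_pos hσ]
      · funext s
        show (if hx : (s : X) ∈ S then g ⟨s, hx⟩ else _) = g s
        rw [dif_pos s.2]
  rw [LinearEquiv.finrank_eq (LinearEquiv.ofBijective r hr), Module.finrank_fintype_fun_eq_card, Fintype.card_coe,
    hcard]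

variable {k : Type*} [Field k] {F : Type*} [Field F] [Fintype F] [DecidableEq F]
variable {V : Type*} [AddCommGroup V] [Module k V] (ρ : Representation k (SpecialLinearGroup (Fin 2) F) V)
variable (p : ℕ) [Fact p.Prime] [CharP k p] [CharP F p]

/-- the map `c ↦ ∑ c(t) u(t) w d` -/
def stMap (d : V) : (F → k) →ₗ[k] V where
  toFun c := ∑ t, c t • ρ (u t) (ρ w d)
  map_add' c c' := by
    rw [← Finset.sum_add_distrib]
    exact Finset.sum_congr rfl fun t _ => add_smul _ _ _
  map_smul' a c := by
    rw [RingHom.id_apply, Finset.smul_sum]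
    exact Finset.sum_congr rfl fun t _ => by rw [Pi.smul_apply, smul_eq_mul, mul_smul]

theorem stMap_apply (d : V) (c : F → k) : stMap ρ d c = ∑ t, c t • ρ (u t) (ρ w d) := rfl

/-- translations -/
def trn (s : F) : (F → k) →ₗ[k] (F → k) where
  toFun c t := c (t - s)
  map_add' _ _ := rfl
  map_smul' _ _ := rfl

theorem stMap_trn (d : V) (s : F) (c : F → k) : stMap ρ d (trn s c) = ρ (u s) (stMap ρ d c) := by
  rw [stMap_apply, stMap_apply, map_sum]
  symm
  refine Fintype.sum_equiv (Equiv.addRight s) _ _ fun t => ?_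
  rw [map_smul, apply_mul, ← u_add, add_comm s t]
  show _ = (trn s c) (t + s) • ρ (u (t + s)) (ρ w d)
  congr 1
  show c t = c (t + s - s)
  rw [add_sub_cancel_right]

include p in
theorem stMap_injective {d : V} (hd : SS ρ d ≠ 0) : Function.Injective (stMap ρ d) := by
  rw [← LinearMap.ker_eq_bot]
  by_contra hne
  set K := LinearMap.ker (stMap ρ d) with hK
  have hnt : Nontrivial K := Submodule.nontrivial_iff_ne_bot.2 hne
  have hst : ∀ (s : F), ∀ c ∈ K, trn s c ∈ K := by
    intro s c hc
    rw [hK, LinearMap.mem_ker] at hc ⊢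
    rw [stMap_trn, hc, map_zero]
  have hpow : ∀ (s : F) (n : ℕ) (x : K), (((((trn (k := k) s).restrict (hst s)) ^ n) x : K) : F → k) =
      fun t => (x : F → k) (t - n * s) := by
    intro s n
    induction n with
    | zero => intro x; funext t; simp
    | succ n ih =>
      intro x
      rw [pow_succ', Module.End.mul_apply]
      funext t
      show (((((trn (k := k) s).restrict (hst s)) ^ n) x : K) : F → k) (t - s) = _
      rw [ih]
      have e1 : t - s - (n : F) * s = t - ((n + 1 : ℕ) : F) * s := by push_cast; ring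
      exact congrArg (x : F → k) e1
  obtain ⟨c, hc, hfix⟩ := SL2Fix.exists_fixed p (k := k) (V := K) (fun s : F => (trn (k := k) s).restrict (hst s))
    (by
      intro s s'
      refine LinearMap.ext fun x => Subtype.ext (funext fun t => ?_)
      have e1 : t - s - s' = t - s' - s := by ring
      exact congrArg (x : F → k) e1)
    (by
      intro s
      refine LinearMap.ext fun x => Subtype.ext ?_
      rw [hpow]
      funext t
      rw [CharP.cast_eq_zero, zero_mul, sub_zero]
      rfl) Finset.univ
  have h1 : ∀ t, (c : F → k) t = (c : F → k) 0 := by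
    intro t
    have h2 := congrArg (fun y : K => (y : F → k) t) (hfix t (Finset.mem_univ t))
    have h3 : (c : F → k) (t - t) = (c : F → k) t := h2
    rw [← h3, sub_self]
  have h4 : stMap ρ d c = 0 := c.2
  rw [stMap_apply, Finset.sum_congr rfl fun t _ => by rw [h1 t], ← Finset.smul_sum, ← SS_apply] at h4
  rcases smul_eq_zero.1 h4 with h5 | h5
  · apply hc
    apply Subtype.ext
    funext t
    rw [h1 t, h5]
    rfl
  · exact hd h5

include p in
/-- **the Steinberg type** -/
theorem st_of_type (hI : Irr ρ) {D : Submodule k V} (G : Good ρ D (-1)) (hD : TSimple ρ D)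
    (hT : ∀ a, ∀ d ∈ D, ρ (h a) d = d) (hsq : ∀ x : F, x ^ 2 ≠ -1) (h2 : (2 : k) ≠ 0) :
    Module.finrank k V = Fintype.card F ∧ 2 * Module.finrank k (eig ρ w 1) + 1 = Fintype.card F := by
  obtain ⟨d, hd, hd0⟩ := Submodule.exists_mem_ne_zero_of_ne_bot hD.1
  have hDspan : D = Submodule.span k {d} := by
    rcases hD.2.2 (Submodule.span k {d}) (by simpa using hd) (by
      intro a x hx
      rw [hT a x ((Submodule.span_le.2 (by simpa using hd)) hx)]
      exact hx) with h0 | h0
    · exact absurd (Submodule.span_singleton_eq_bot.1 h0) hd0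
    · exact h0.symm
  have hSd : SS ρ d = -d := by rw [G.ss d hd, neg_one_smul]
  have hinj : Function.Injective (stMap ρ d) := stMap_injective ρ p (by rw [hSd]; exact neg_ne_zero.2 hd0)
  have hsurj : Function.Surjective (stMap ρ d) := by
    rw [← LinearMap.range_eq_top, eq_top_iff, ← MM_eq_top ρ G hD.1 hI]
    refine Submodule.span_le.2 ?_
    rintro _ ⟨t, x, hx, rfl⟩
    rw [hDspan] at hx
    obtain ⟨a, rfl⟩ := Submodule.mem_span_singleton.1 hx
    refine ⟨Pi.single t a, ?_⟩
    rw [stMap_apply, Finset.sum_eq_single t]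
    · rw [Pi.single_eq_same, map_smul, map_smul]
    · intro s _ hs
      rw [Pi.single_eq_of_ne hs, zero_smul]
    · intro h0
      exact absurd (Finset.mem_univ t) h0
  let e := LinearEquiv.ofBijective (stMap ρ d) ⟨hinj, hsurj⟩
  have hw : ∀ c : F → k, ρ w (stMap ρ d c) = stMap ρ d (fun t => (if t = 0 then 0 else c (-t⁻¹)) - c 0) := by
    intro c
    rw [stMap_apply, map_sum, ← Finset.add_sum_erase _ _ (Finset.mem_univ (0 : F)), stMap_apply]
    have h1 : ρ w (c 0 • ρ (u 0) (ρ w d)) = - ∑ t : F, c 0 • ρ (u t) (ρ w d) := by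
      rw [← Finset.smul_sum, ← SS_apply, hSd, smul_neg, neg_neg, map_smul, u_zero, map_one, Module.End.one_apply, ww,
        hT _ d hd]
    have h3 : ∑ t : F, ((if t = 0 then 0 else c (-t⁻¹)) - c 0) • ρ (u t) (ρ w d) =
        (∑ t : F, (if t = 0 then 0 else c (-t⁻¹)) • ρ (u t) (ρ w d)) - ∑ t : F, c 0 • ρ (u t) (ρ w d) := by
      rw [← Finset.sum_sub_distrib]
      exact Finset.sum_congr rfl fun t _ => sub_smul _ _ _
    rw [h1, h3, ← sub_eq_neg_add]
    congr 1
    rw [← Finset.add_sum_erase Finset.univ (fun t => (if t = 0 then 0 else c (-t⁻¹)) • ρ (u t) (ρ w d))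
      (Finset.mem_univ (0 : F)), if_pos rfl, zero_smul, zero_add]
    refine Finset.sum_bij (fun t _ => -t⁻¹) ?_ ?_ ?_ ?_
    · intro t ht
      exact Finset.mem_erase.2 ⟨neg_ne_zero.2 (inv_ne_zero (Finset.ne_of_mem_erase ht)), Finset.mem_univ _⟩
    · intro s _ t _ h4
      exact inv_injective (neg_injective h4)
    · intro t ht
      have ht0 := Finset.ne_of_mem_erase ht
      exact ⟨-t⁻¹, Finset.mem_erase.2 ⟨neg_ne_zero.2 (inv_ne_zero ht0), Finset.mem_univ _⟩, by
        rw [inv_neg, inv_inv, neg_neg]⟩
    · intro t ht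
      have ht0 := Finset.ne_of_mem_erase ht
      rw [map_smul, wuw ρ G.ufix ht0 hd, hT _ d hd, if_neg (neg_ne_zero.2 (inv_ne_zero ht0)), inv_neg, inv_inv, neg_neg]
  have hfr : Module.finrank k V = Fintype.card F := by
    rw [← LinearEquiv.finrank_eq e, Module.finrank_fintype_fun_eq_card]
  refine ⟨hfr, ?_⟩
  -- the fixed space
  have hfix : ∀ c : F → k, stMap ρ d c ∈ eig ρ w 1 ↔ c 0 = 0 ∧ ∀ t, t ≠ 0 → c (-t⁻¹) = c t := by
    intro c
    rw [mem_eig, one_smul, hw]
    constructor
    · intro h1
      have h3 := hinj h1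
      have h4 := congrFun h3 0
      have h5 : (0 : k) - c 0 = c 0 := by simpa using h4
      have h6 : c 0 = 0 := by
        have h7 : (2 : k) * c 0 = 0 := by rw [two_mul]; nth_rewrite 1 [← h5]; ring
        exact (mul_eq_zero.1 h7).resolve_left h2
      refine ⟨h6, fun t ht => ?_⟩
      have h8 := congrFun h3 t
      have h9 : (if t = 0 then 0 else c (-t⁻¹)) - c 0 = c t := h8
      rwa [if_neg ht, h6, sub_zero] at h9
    · rintro ⟨h6, h7⟩
      congr 1
      funext t
      by_cases ht : t = 0
      · rw [if_pos ht, ht, h6, sub_zero]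
      · rw [if_neg ht, h6, sub_zero, h7 t ht]
  -- functions on the units
  let σ : Fˣ → Fˣ := fun a => -a⁻¹
  let C : Submodule k (Fˣ → k) :=
    { carrier := {f | ∀ x, f (σ x) = f x}
      zero_mem' := fun x => rfl
      add_mem' := fun {f g} hf hg x => by rw [Pi.add_apply, Pi.add_apply, hf x, hg x]
      smul_mem' := fun c f hf x => by rw [Pi.smul_apply, Pi.smul_apply, hf x] }
  have hC := finrank_inv (k := k) σ (fun x => by simp [σ]) (fun x hx => by
    have h3 : (-(x : F)⁻¹) = x := by
      have := congrArg Units.val hx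
      simpa [σ] using this
    have hx0 : (x : F) ≠ 0 := x.ne_zero
    apply hsq x
    have h4 : (x : F) * (-(x : F)⁻¹) = x * x := by rw [h3]
    rw [mul_neg, mul_inv_cancel₀ hx0] at h4
    rw [sq, ← h4]) C (fun f => Iff.rfl)
  have heq : Module.finrank k (eig ρ w 1) = Module.finrank k C := by
    let f : C →ₗ[k] eig ρ w 1 :=
      { toFun := fun c => ⟨stMap ρ d (fun t => if ht : t = 0 then 0 else (c : Fˣ → k) (Units.mk0 t ht)), by
          rw [hfix]
          refine ⟨dif_pos rfl, fun t ht => ?_⟩
          have ht' : -t⁻¹ ≠ 0 := neg_ne_zero.2 (inv_ne_zero ht)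
          rw [dif_neg ht, dif_neg ht']
          have h3 := c.2 (Units.mk0 t ht)
          rw [← h3]
          have e1 : Units.mk0 (-t⁻¹) ht' = σ (Units.mk0 t ht) := by
            apply Units.ext
            simp [σ]
          exact congrArg (c : Fˣ → k) e1⟩
        map_add' := fun c c' => by
          apply Subtype.ext
          show stMap ρ d _ = stMap ρ d _ + stMap ρ d _
          rw [← map_add]
          congr 1
          funext t
          by_cases ht : t = 0
          · simp [ht]
          · simp [ht]
        map_smul' := fun a c => by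
          apply Subtype.ext
          show stMap ρ d _ = a • stMap ρ d _
          rw [← map_smul]
          congr 1
          funext t
          by_cases ht : t = 0
          · simp [ht]
          · simp [ht] }
    symm
    refine LinearEquiv.finrank_eq (LinearEquiv.ofBijective f ⟨?_, ?_⟩)
    · intro c c' h3
      have h4 := hinj (congrArg Subtype.val h3)
      apply Subtype.ext
      funext x
      have h5 := congrFun h4 (x : F)
      rw [dif_neg x.ne_zero, dif_neg x.ne_zero] at h5
      have h6 : Units.mk0 (x : F) x.ne_zero = x := Units.ext rfl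
      rwa [h6] at h5
    · rintro ⟨y, hy⟩
      obtain ⟨c, rfl⟩ := hsurj y
      rw [hfix] at hy
      refine ⟨⟨fun x => c x, fun x => ?_⟩, ?_⟩
      · have h3 := hy.2 x x.ne_zero
        have h4 : ((σ x : Fˣ) : F) = -(x : F)⁻¹ := by simp [σ]
        show c ((σ x : Fˣ) : F) = c x
        rw [h4, h3]
      · apply Subtype.ext
        show stMap ρ d _ = stMap ρ d c
        congr 1
        funext t
        by_cases ht : t = 0
        · rw [dif_pos ht, ht, hy.1]
        · rw [dif_neg ht]
          rfl
  rw [heq, hC, Fintype.card_units]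
  have := Fintype.card_pos (α := F)
  omega

end Cfsg.Agent.H943.SL2Mod
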